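import Cfsg.Agent.H8.RelGroup
import Cfsg.Agent.H8.CosetCls

/-!
# Small lemmas on groups generated by words
-/

set_option autoImplicit false
set_option linter.all false

namespace Cfsg.Agent.H8

theorem wordGroup_sub_top' {G : Type*} [Group G] (s : Nat → G) (gens : List (List Nat))
    (K : Subgroup (wordGroup s gens))
    (h : ∀ w ∈ gens, ∀ x : wordGroup s gens, (x : G) = (w.map s).prod → x ∈ K) : K = ⊤ := by
  rw [eq_top_iff]
  have h1 := Subgroup.closure_closure_coe_preimage (k := {g : G | ∃ w ∈ gens, g = (w.map s).prod})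
  have h2 : (⊤ : Subgroup (wordGroup s gens)) = Subgroup.closure
    ((Subtype.val : wordGroup s gens → G) ⁻¹' {g : G | ∃ w ∈ gens, g = (w.map s).prod}) := h1.symm
  rw [h2, Subgroup.closure_le]
  rintro x ⟨w, hw, hx⟩
  exact h w hw x hx

/-- `(u v)³ = 1` for involutions: conjugation by `u v` maps `u` to `v`. -/
theorem braid_conj {G : Type*} [Group G] (u v : G) (hu : u * u = 1) (hv : v * v = 1) (h : (u * v) ^ 3 = 1) :
    (u * v) * u * (u * v)⁻¹ = v := by
  have hu' : u⁻¹ = u := (eq_inv_of_mul_eq_one_left hu).symm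
  have hv' : v⁻¹ = v := (eq_inv_of_mul_eq_one_left hv).symm
  have h1 : u * v * (u * v) * (u * v) = 1 := by
    rw [← h]; simp only [pow_succ, pow_zero, one_mul]
  have h2 : u * v * (u * v) = (u * v)⁻¹ := eq_inv_of_mul_eq_one_left h1
  rw [mul_inv_rev, hu', hv']
  have h3 : u * v * u * (v * u) = (u * v * (u * v)) * u := by simp only [mul_assoc]
  rw [h3, h2, mul_inv_rev, hu', hv', mul_assoc, hu, mul_one]

end Cfsg.Agent.H8
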