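import Cfsg.Agent.H8.OutTool2

/-!
# Upper bounds for centraliser orders from fixed points
-/

set_option autoImplicit false

namespace Cfsg.Agent.H8

/-- the orbit function restricted to the fixed points of a letter. -/
noncomputable def fixQ (Q Z : Nat → Nat) (i : Nat) : Nat :=
  @Bool.rec (fun _ => Nat) 0 (Q i) (Nat.beq (Z i) i)

theorem fixQ_ne (Q Z : Nat → Nat) (i : Nat) (h1 : Q i ≠ 0) (h2 : Z i = i) : fixQ Q Z i ≠ 0 := by
  unfold fixQ
  have : Nat.beq (Z i) i = true := by rw [h2]; exact Nat.beq_refl i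
  rw [this]
  exact h1

theorem cent_step {G : Type*} [Group G] [Finite G] (s : Nat → G) {n L : Nat} {T : Nat → Nat → Nat} {inv : Nat → Nat}
    (hT : TableOK n L T inv) (ρ : G →* Equiv.Perm (Fin n)) (hρ : ∀ l < L, ρ (s l) = permL hT l)
    (zw : List Nat) (hzw : ∀ l ∈ zw, l < L) (K K' : Subgroup G) (b : Fin n) (Q : Nat → Nat) (c : Nat)
    (horb : ∀ g ∈ K, Q (act ρ b g) ≠ 0) (hst : ∀ g ∈ K, act ρ b g = b → g ∈ K')
    (hb : trN T zw b = b) (hc : cntT (fixQ Q (trN T zw)) c n 0 = true) :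
    Nat.card ↥(Subgroup.centralizer ({(zw.map s).prod} : Set G) ⊓ K) ≤
      c * Nat.card ↥(Subgroup.centralizer ({(zw.map s).prod} : Set G) ⊓ K') := by
  classical
  set z : G := (zw.map s).prod with hz
  have hact : ∀ i : Fin n, ((act ρ i z : Fin n) : Nat) = trN T zw i := fun i => act_word s hT ρ hρ i zw hzw
  have hbz : act ρ b z = b := Fin.ext (by rw [hact, hb])
  let F : Set (Fin n) := {j | fixQ Q (trN T zw) j ≠ 0}
  have hF : Nat.card F = c := by
    rw [← cntT_ncard _ c n hc]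
    exact Nat.card_coe_set_eq F
  let C : Subgroup G := Subgroup.centralizer ({z} : Set G) ⊓ K
  let C' : Subgroup G := Subgroup.centralizer ({z} : Set G) ⊓ K'
  have hmem : ∀ g ∈ C, act ρ b g ∈ F := by
    intro g hg
    apply fixQ_ne
    · exact horb g hg.2
    · have h1 : g * z = z * g := (Subgroup.mem_centralizer_singleton_iff.1 hg.1)
      rw [← hact, ← act_mul, h1, act_mul, hbz]
  have hrep : ∀ j : Fin n, ∃ r : G, (∃ g ∈ C, act ρ b g = j) → (r ∈ C ∧ act ρ b r = j) := by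
    intro j
    by_cases h : ∃ g ∈ C, act ρ b g = j
    · obtain ⟨g, h1, h2⟩ := h
      exact ⟨g, fun _ => ⟨h1, h2⟩⟩
    · exact ⟨1, fun h' => absurd h' h⟩
  choose r hr using hrep
  have hr' : ∀ g ∈ C, r (act ρ b g) ∈ C ∧ act ρ b (r (act ρ b g)) = act ρ b g := fun g hg => hr _ ⟨g, hg, rfl⟩
  have hmem' : ∀ g ∈ C, g * (r (act ρ b g))⁻¹ ∈ C' := by
    intro g hg
    obtain ⟨h1, h2⟩ := hr' g hg
    have h3 : g * (r (act ρ b g))⁻¹ ∈ C := C.mul_mem hg (C.inv_mem h1)
    refine ⟨h3.1, hst _ h3.2 ?_⟩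
    rw [act_mul]
    apply act_inj ρ _ _ (r (act ρ b g))
    rw [← act_mul, inv_mul_cancel, act_one, h2]
  let φ : C → F × C' := fun g => (⟨act ρ b g, hmem g g.2⟩, ⟨(g : G) * (r (act ρ b g))⁻¹, hmem' g g.2⟩)
  have hφ : Function.Injective φ := by
    intro g h hgh
    have h1 : act ρ b (g : G) = act ρ b (h : G) := congrArg (fun x : F × C' => ((x.1 : F) : Fin n)) hgh
    have h2 : (g : G) * (r (act ρ b g))⁻¹ = (h : G) * (r (act ρ b h))⁻¹ := congrArg (fun x : F × C' => ((x.2 : C') : G)) hgh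
    rw [h1] at h2
    exact Subtype.ext (mul_right_cancel h2)
  have h1 := Nat.card_le_card_of_injective φ hφ
  rw [Nat.card_prod, hF] at h1
  exact h1

end Cfsg.Agent.H8
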