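import Cfsg.Prelude.Def_SporadicB
import Mathlib

/-!
# A criterion for non-split double covers
-/

set_option autoImplicit false
set_option linter.all false

namespace Cfsg.Agent.H8

theorem normal_zpowers_of_central {H : Type*} [Group H] (z : H) (hc : ∀ h, h * z = z * h) :
    (Subgroup.zpowers z).Normal := by
  constructor
  intro n hn g
  obtain ⟨i, rfl⟩ := Subgroup.mem_zpowers_iff.1 hn
  have h1 : g * z * g⁻¹ = z := by rw [hc]; group
  rw [← conj_zpow, h1]
  exact Subgroup.mem_zpowers_iff.2 ⟨i, rfl⟩

theorem nonsplit_of {H K : Type*} [Group H] [Group K] (z : H) (hz : orderOf z = 2)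
    (hc : ∀ h, h * z = z * h) (hn : (Subgroup.zpowers z).Normal)
    (e : (H ⧸ Subgroup.zpowers z) ≃* K) (hK : ∀ x : K, (∀ g, g * x = x * g) → x = 1)
    (hperf : commutator H = ⊤) : Cfsg.IsNonsplitDoubleCover H K := by
  have hcen : Subgroup.center H = Subgroup.zpowers z := by
    apply le_antisymm
    · intro x hx
      rw [Subgroup.mem_center_iff] at hx
      have h1 : e (QuotientGroup.mk x) = 1 := by
        apply hK
        intro g
        obtain ⟨y, rfl⟩ := e.surjective g
        obtain ⟨y, rfl⟩ := QuotientGroup.mk_surjective y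
        rw [← map_mul, ← map_mul, ← QuotientGroup.mk_mul, ← QuotientGroup.mk_mul, hx y]
      have h2 : (QuotientGroup.mk x : H ⧸ Subgroup.zpowers z) = 1 := by
        apply e.injective
        rw [h1, map_one]
      exact (QuotientGroup.eq_one_iff x).1 h2
    · rw [Subgroup.zpowers_le, Subgroup.mem_center_iff]
      intro g
      exact hc g
  refine ⟨?_, ?_, ?_⟩
  · rw [hcen, Nat.card_zpowers, hz]
  · exact ⟨(QuotientGroup.quotientMulEquivOfEq hcen).trans e⟩
  · intro L hL
    have h1 : L.index = 2 := by
      rw [hL.index_eq_card, hcen, Nat.card_zpowers, hz]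
    have h2 : commutator H ≤ L := by
      rw [commutator_def, Subgroup.commutator_le]
      intro a _ b _
      rw [commutatorElement_def]
      rw [Subgroup.mul_mem_iff_of_index_two h1, Subgroup.mul_mem_iff_of_index_two h1,
        Subgroup.mul_mem_iff_of_index_two h1, Subgroup.inv_mem_iff, Subgroup.inv_mem_iff]
      tauto
    rw [hperf, top_le_iff] at h2
    rw [h2, Subgroup.index_top] at h1
    exact absurd h1 (by decide)

end Cfsg.Agent.H8
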