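import Cfsg.Agent.H8.F4Vec
import Cfsg.Agent.H8.CosetPerm

/-!
# Matrices over `F4` given by column tables
-/

set_option autoImplicit false
set_option linter.all false
set_option maxHeartbeats 400000

namespace Cfsg.Agent.H8

/-- image of a coded vector under a coded matrix with `n` columns. Entry `4 j + a` of the table is the code of `a` times
column `j`. -/
noncomputable def actN (mt : Nat → Nat) (c : Nat) (n : Nat) : Nat :=
  @Nat.rec (fun _ => Nat) (nat_lit 0)
    (fun j ih => Nat.xor ih (mt (Nat.add (Nat.mul (nat_lit 4) j) (Nat.land (Nat.shiftRight c (Nat.mul (nat_lit 2) j)) (nat_lit 3))))) n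

theorem ofN_xor : ∀ x < 4, ∀ y < 4, F4.ofN (Nat.xor x y) = F4.ofN x + F4.ofN y := by
  intro x hx y hy
  interval_cases x <;> interval_cases y <;> rfl

theorem comp_xor (c c' k : Nat) : comp (Nat.xor c c') k = comp c k + comp c' k := by
  unfold comp
  have h1 : Nat.land (Nat.shiftRight (Nat.xor c c') (2 * k)) 3 =
      Nat.xor (Nat.land (Nat.shiftRight c (2 * k)) 3) (Nat.land (Nat.shiftRight c' (2 * k)) 3) := by
    show ((c ^^^ c') >>> (2 * k)) &&& 3 = ((c >>> (2 * k)) &&& 3) ^^^ ((c' >>> (2 * k)) &&& 3)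
    rw [Nat.shiftRight_xor_distrib, Nat.and_xor_distrib_right]
  have h2 : ∀ c : Nat, Nat.land (Nat.shiftRight c (2 * k)) 3 < 4 := by
    intro c
    have := Nat.and_le_right (n := c >>> (2 * k)) (m := 3)
    show (c >>> (2 * k)) &&& 3 < 4
    omega
  have h3 := ofN_xor _ (h2 c) _ (h2 c')
  rw [← h1] at h3
  exact h3

theorem comp_zero (k : Nat) : comp 0 k = 0 := by
  unfold comp
  have : Nat.land (Nat.shiftRight 0 (2 * k)) 3 = 0 := by
    show ((0 : Nat) >>> (2 * k)) &&& 3 = 0
    simp
  have h2 : F4.ofN (Nat.land (Nat.shiftRight 0 (Nat.mul (nat_lit 2) k)) (nat_lit 3)) = F4.ofN 0 := congrArg F4.ofN this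
  rw [h2]; rfl

/-- linearity of the table. -/
noncomputable def ckLin (mt : Nat → Nat) (n : Nat) : Bool :=
  allR (fun j => allR (fun a => force (mt (Nat.add (Nat.mul (nat_lit 4) j) a)) fun c =>
    force (mt (Nat.add (Nat.mul (nat_lit 4) j) (nat_lit 1))) fun c1 =>
    allR (fun i => F4.beq' (comp c i) (F4.mul' (F4.ofN a) (comp c1 i))) (nat_lit 0) n) (nat_lit 0) (nat_lit 4))
    (nat_lit 0) n

theorem ckLin_sound (mt : Nat → Nat) (n : Nat) (h : ckLin mt n = true) (j : Nat) (hj : j < n) (a : Nat) (ha : a < 4)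
    (i : Nat) (hi : i < n) : comp (mt (4 * j + a)) i = F4.ofN a * comp (mt (4 * j + 1)) i := by
  have h1 := allR_zero _ _ (allR_zero _ _ h j hj) a ha
  simp only [force_eq] at h1
  exact F4.eq_of_beq' (allR_zero _ _ h1 i hi)

theorem actN_comp (mt : Nat → Nat) (n c : Nat) (h : ckLin mt n = true) (i : Nat) (hi : i < n) : ∀ m ≤ n,
    comp (actN mt c m) i = ∑ j ∈ Finset.range m, comp (mt (4 * j + 1)) i * comp c j := by
  intro m
  induction m with
  | zero => intro _; exact comp_zero i
  | succ m ih =>
    intro hm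
    have e : actN mt c (m + 1) = Nat.xor (actN mt c m)
      (mt (4 * m + Nat.land (Nat.shiftRight c (2 * m)) 3)) := rfl
    have h2 : Nat.land (Nat.shiftRight c (2 * m)) 3 < 4 := by
      have := Nat.and_le_right (n := c >>> (2 * m)) (m := 3)
      show (c >>> (2 * m)) &&& 3 < 4
      omega
    rw [e, comp_xor, ih (by omega), Finset.sum_range_succ, ckLin_sound mt n h m (by omega) _ h2 i hi]
    congr 1
    rw [mul_comm]
    rfl

section mats
variable {I : Type*} [Fintype I] [DecidableEq I] {n : Nat} (e : I ≃ Fin n)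

/-- the matrix of a table. -/
noncomputable def matT (mt : Nat → Nat) : Matrix I I F4 := fun i j => comp (mt (4 * (e j : Nat) + 1)) (e i)

/-- the vector of a code. -/
noncomputable def vecT (c : Nat) : I → F4 := fun i => comp c (e i)

omit [DecidableEq I] in
theorem actN_vec (mt : Nat → Nat) (h : ckLin mt n = true) (c : Nat) :
    vecT e (actN mt c n) = (matT e mt).mulVec (vecT e c) := by
  funext i
  show comp (actN mt c n) (e i) = _
  rw [actN_comp mt n c h (e i) (e i).2 n le_rfl, Finset.sum_range]
  simp only [Matrix.mulVec, dotProduct]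
  rw [← Equiv.sum_comp e]
  rfl

/-- action of a word of tables (the last table acts first). -/
noncomputable def actW (n : Nat) (ms : List (Nat → Nat)) (c : Nat) : Nat :=
  @List.rec (Nat → Nat) (fun _ => Nat) c (fun m _ ih => force ih fun c => actN m c n) ms

theorem actW_vec (ms : List (Nat → Nat)) (h : ∀ m ∈ ms, ckLin m n = true) (c : Nat) :
    vecT e (actW n ms c) = ((ms.map (matT e)).prod).mulVec (vecT e c) := by
  induction ms with
  | nil => rw [List.map_nil, List.prod_nil, Matrix.one_mulVec]; rfl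
  | cons m ms ih =>
    have e1 : actW n (m :: ms) c = actN m (actW n ms c) n := by
      show force (actW n ms c) (fun c => actN m c n) = _
      rw [force_eq]
    rw [e1, actN_vec e m (h m List.mem_cons_self), ih (fun m' hm' => h m' (List.mem_cons_of_mem _ hm')),
      List.map_cons, List.prod_cons, Matrix.mulVec_mulVec]

/-- iterate. -/
noncomputable def actP (n : Nat) (ms : List (Nat → Nat)) (c : Nat) (k : Nat) : Nat :=
  @Nat.rec (fun _ => Nat) c (fun _ ih => force ih fun c => actW n ms c) k

theorem actP_vec (ms : List (Nat → Nat)) (h : ∀ m ∈ ms, ckLin m n = true) (c k : Nat) :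
    vecT e (actP n ms c k) = (((ms.map (matT e)).prod) ^ k).mulVec (vecT e c) := by
  induction k with
  | zero => rw [pow_zero, Matrix.one_mulVec]; rfl
  | succ k ih =>
    have e1 : actP n ms c (k + 1) = actW n ms (actP n ms c k) := by
      show force (actP n ms c k) (fun c => actW n ms c) = _
      rw [force_eq]
    rw [e1, actW_vec e ms h, ih, pow_succ', Matrix.mulVec_mulVec]

/-- codes of the basis vectors. -/
noncomputable def bas (j : Nat) : Nat := Nat.shiftLeft (nat_lit 1) (Nat.mul (nat_lit 2) j)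

noncomputable def ckBas (n : Nat) : Bool :=
  allR (fun j => allR (fun i => F4.beq' (comp (bas j) i) (@Bool.rec (fun _ => F4) F4.z F4.o (Nat.beq i j))) (nat_lit 0) n)
    (nat_lit 0) n

theorem bas_vec (hn : ckBas n = true) (i : I) : vecT e (bas (e i)) = Pi.single i 1 := by
  funext k
  have h1 := F4.eq_of_beq' (allR_zero _ _ (allR_zero _ _ hn (e i) (e i).2) (e k) (e k).2)
  show comp (bas (e i)) (e k) = _
  rw [h1, Pi.single_apply]
  by_cases h : k = i
  · subst h
    rw [if_pos rfl, Nat.beq_refl]; rfl
  · rw [if_neg h]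
    have h2 : Nat.beq (e k : Nat) (e i : Nat) = false := by
      cases hb : Nat.beq (e k : Nat) (e i : Nat) with
      | false => rfl
      | true =>
        exfalso
        exact h (e.injective (Fin.ext (Nat.eq_of_beq_eq_true hb)))
    rw [h2]; rfl

/-- the power of a word is the identity. -/
theorem pow_eq_one_of_actP (hn : ckBas n = true) (ms : List (Nat → Nat)) (hm : ∀ m ∈ ms, ckLin m n = true) (k : Nat)
    (h : allR (fun j => Nat.beq (actP n ms (bas j) k) (bas j)) 0 n = true) :
    ((ms.map (matT e)).prod) ^ k = 1 := by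
  ext i j
  have h1 := Nat.eq_of_beq_eq_true (allR_zero _ _ h (e j) (e j).2)
  have h2 := actP_vec e ms hm (bas (e j)) k
  rw [h1, bas_vec e hn, Matrix.mulVec_single_one] at h2
  have h3 := congrFun h2 i
  rw [Pi.single_apply] at h3
  rw [Matrix.one_apply]
  exact h3.symm

/-- a word is equal to a table matrix. -/
theorem word_eq_table (hn : ckBas n = true) (ms : List (Nat → Nat)) (hm : ∀ m ∈ ms, ckLin m n = true) (mt : Nat → Nat)
    (h : allR (fun j => Nat.beq (actW n ms (bas j)) (mt (Nat.add (Nat.mul (nat_lit 4) j) (nat_lit 1)))) 0 n = true) :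
    (ms.map (matT e)).prod = matT e mt := by
  ext i j
  have h1 := Nat.eq_of_beq_eq_true (allR_zero _ _ h (e j) (e j).2)
  have h2 := actW_vec e ms hm (bas (e j))
  rw [h1, bas_vec e hn, Matrix.mulVec_single_one] at h2
  exact (congrFun h2 i).symm

/-- the table of a matrix. -/
theorem matT_eq (mt : Nat → Nat) (M : Matrix I I F4)
    (h : ∀ i j, F4.beq' (M i j) (comp (mt (4 * (e j : Nat) + 1)) (e i)) = true) : matT e mt = M := by
  ext i j
  exact (F4.eq_of_beq' (h i j)).symm

end mats

end Cfsg.Agent.H8
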