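import Cfsg.Agent.H8.F4
import Cfsg.Agent.H8.CosetEnum

/-!
# Vectors over `F4` encoded by natural numbers
-/

set_option autoImplicit false
set_option linter.all false

namespace Cfsg.Agent.H8

/-- evaluate an element of `F4` first. -/
noncomputable def forceF {α : Type} (x : F4) (k : F4 → α) : α :=
  @F4.rec (fun _ => α) (k F4.z) (k F4.o) (k F4.w) (k F4.v) x

theorem forceF_eq {α : Type} (x : F4) (k : F4 → α) : forceF x k = k x := by cases x <;> rfl

/-- component of a code. -/
noncomputable def comp (c k : Nat) : F4 := F4.ofN (Nat.land (Nat.shiftRight c (Nat.mul (nat_lit 2) k)) (nat_lit 3))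

/-- the vector with a given code. -/
noncomputable def vecF (n : Nat) (c : Nat) : Fin n → F4 := fun k => comp c k

/-- `∑ t_j² x_{k+j}`. -/
noncomputable def hermL (c : Nat) (ts : List F4) : Nat → F4 :=
  @List.rec F4 (fun _ => Nat → F4) (fun _ => F4.z)
    (fun t _ ih k => F4.add' (F4.mul' (F4.mul' t t) (comp c k)) (force (Nat.succ k) ih)) ts

/-- `x_k + h t_k = a y_k` for all `k`. -/
noncomputable def ckEqL (h a : F4) (c c' : Nat) (ts : List F4) : Nat → Bool :=
  @List.rec F4 (fun _ => Nat → Bool) (fun _ => true)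
    (fun t _ ih k => @Bool.rec (fun _ => Bool) false (force (Nat.succ k) ih)
      (F4.beq' (F4.add' (comp c k) (F4.mul' h t)) (F4.mul' a (comp c' k)))) ts

/-- the transvection with vector `ts` maps the line of `c` to the line of `c'`. -/
noncomputable def ckTauL (ts : List F4) (c c' : Nat) : Bool :=
  force c fun c => force c' fun c' => forceF (hermL c ts 0) fun h =>
    @Bool.rec (fun _ => Bool) (@Bool.rec (fun _ => Bool) (ckEqL h F4.v c c' ts 0) true (ckEqL h F4.w c c' ts 0))
      true (ckEqL h F4.o c c' ts 0)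

theorem ckTauL_sound (ts : List F4) (c c' : Nat) (h : ckTauL ts c c' = true) :
    ∃ a : F4, a ≠ 0 ∧ ckEqL (hermL c ts 0) a c c' ts 0 = true := by
  unfold ckTauL at h
  rw [force_eq, force_eq, forceF_eq] at h
  cases h1 : ckEqL (hermL c ts 0) F4.o c c' ts 0
  · rw [h1] at h
    cases h2 : ckEqL (hermL c ts 0) F4.w c c' ts 0
    · rw [h2] at h
      exact ⟨F4.v, by decide, h⟩
    · exact ⟨F4.w, by decide, h2⟩
  · exact ⟨F4.o, by decide, h1⟩

theorem ckEqL_cons (h a : F4) (c c' : Nat) (t : F4) (ts : List F4) (k : Nat)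
    (hh : ckEqL h a c c' (t :: ts) k = true) :
    comp c k + h * t = a * comp c' k ∧ ckEqL h a c c' ts (k + 1) = true := by
  have h1 : @Bool.rec (fun _ => Bool) false (force (Nat.succ k) (ckEqL h a c c' ts))
      (F4.beq' (F4.add' (comp c k) (F4.mul' h t)) (F4.mul' a (comp c' k))) = true := hh
  rw [force_eq] at h1
  cases h2 : F4.beq' (F4.add' (comp c k) (F4.mul' h t)) (F4.mul' a (comp c' k))
  · rw [h2] at h1; exact absurd (show false = true from h1) Bool.false_ne_true
  · rw [h2] at h1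
    exact ⟨F4.eq_of_beq' h2, h1⟩

/-- dimension six. -/
noncomputable def ckTau6 (t0 t1 t2 t3 t4 t5 : F4) (c c' : Nat) : Bool := ckTauL [t0, t1, t2, t3, t4, t5] c c'

theorem ckTau6_sound (t0 t1 t2 t3 t4 t5 : F4) (c c' : Nat) (h : ckTau6 t0 t1 t2 t3 t4 t5 c c' = true) :
    ∃ a : F4, a ≠ 0 ∧ vecF 6 c + (∑ k : Fin 6, (![t0, t1, t2, t3, t4, t5] k) ^ 2 * vecF 6 c k) • ![t0, t1, t2, t3, t4, t5]
      = a • vecF 6 c' := by
  obtain ⟨a, ha, h1⟩ := ckTauL_sound _ c c' h
  have e : (∑ k : Fin 6, (![t0, t1, t2, t3, t4, t5] k) ^ 2 * vecF 6 c k) = hermL c [t0, t1, t2, t3, t4, t5] 0 := by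
    have e1 : hermL c [t0, t1, t2, t3, t4, t5] 0 = (t0 * t0) * comp c 0 + ((t1 * t1) * comp c 1 +
      ((t2 * t2) * comp c 2 + ((t3 * t3) * comp c 3 + ((t4 * t4) * comp c 4 + ((t5 * t5) * comp c 5 + 0))))) := by
      unfold hermL
      simp only [force_eq]
      rfl
    rw [e1]
    simp only [Fin.sum_univ_succ, Fin.sum_univ_zero]
    simp only [pow_two]
    rfl
  rw [← e] at h1
  obtain ⟨k0, h1⟩ := ckEqL_cons _ _ _ _ _ _ _ h1
  obtain ⟨k1, h1⟩ := ckEqL_cons _ _ _ _ _ _ _ h1
  obtain ⟨k2, h1⟩ := ckEqL_cons _ _ _ _ _ _ _ h1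
  obtain ⟨k3, h1⟩ := ckEqL_cons _ _ _ _ _ _ _ h1
  obtain ⟨k4, h1⟩ := ckEqL_cons _ _ _ _ _ _ _ h1
  obtain ⟨k5, h1⟩ := ckEqL_cons _ _ _ _ _ _ _ h1
  refine ⟨a, ha, ?_⟩
  funext k
  fin_cases k
  · exact k0
  · exact k1
  · exact k2
  · exact k3
  · exact k4
  · exact k5

/-- encode the components of a code multiplied by a scalar. -/
noncomputable def encS (a : F4) (c : Nat) (n : Nat) : Nat :=
  @Nat.rec (fun _ => Nat) (nat_lit 0) (fun k ih => Nat.add ih (Nat.shiftLeft
    (@F4.rec (fun _ => Nat) (nat_lit 0) (nat_lit 1) (nat_lit 2) (nat_lit 3) (F4.mul' a (comp c k)))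
    (Nat.mul (nat_lit 2) k))) n

/-- number of an element of `F4`. -/
noncomputable def toN (a : F4) : Nat := @F4.rec (fun _ => Nat) (nat_lit 0) (nat_lit 1) (nat_lit 2) (nat_lit 3) a

/-- encode a vector. -/
noncomputable def encV (f : Nat → F4) (n : Nat) : Nat :=
  @Nat.rec (fun _ => Nat) (nat_lit 0) (fun k ih => Nat.add ih (Nat.shiftLeft (toN (f k)) (Nat.mul (nat_lit 2) k))) n

/-- all nonzero multiples of the vector are decoded to `i`. -/
noncomputable def ckIxL (n : Nat) (ix : Nat → Nat) (c i : Nat) : Bool :=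
  force c fun c => @Bool.rec (fun _ => Bool) false (@Bool.rec (fun _ => Bool) false
    (force (encV (fun k => F4.mul' F4.v (comp c k)) n) fun e => Nat.beq (ix e) i)
    (force (encV (fun k => F4.mul' F4.w (comp c k)) n) fun e => Nat.beq (ix e) i))
    (force (encV (fun k => F4.mul' F4.o (comp c k)) n) fun e => Nat.beq (ix e) i)

theorem ckIxL_sound (n : Nat) (ix : Nat → Nat) (c i : Nat) (h : ckIxL n ix c i = true) (a : F4) (ha : a ≠ 0) :
    ix (encV (fun k => a * comp c k) n) = i := by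
  unfold ckIxL at h
  simp only [force_eq] at h
  cases h1 : Nat.beq (ix (encV (fun k => F4.mul' F4.o (comp c k)) n)) i
  · rw [h1] at h; exact absurd (show false = true from h) Bool.false_ne_true
  rw [h1] at h
  cases h2 : Nat.beq (ix (encV (fun k => F4.mul' F4.w (comp c k)) n)) i
  · rw [h2] at h; exact absurd (show false = true from h) Bool.false_ne_true
  rw [h2] at h
  rcases F4.cases4 a with rfl | rfl | rfl | rfl
  · exact absurd rfl ha
  · exact Nat.eq_of_beq_eq_true h1
  · exact Nat.eq_of_beq_eq_true h2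
  · exact Nat.eq_of_beq_eq_true h

theorem encV_congr (f g : Nat → F4) (n : Nat) (h : ∀ k < n, f k = g k) : encV f n = encV g n := by
  induction n with
  | zero => rfl
  | succ n ih =>
    have e : ∀ f : Nat → F4, encV f (n + 1) = encV f n + Nat.shiftLeft (toN (f n)) (2 * n) := fun f => rfl
    rw [e, e, ih (fun k hk => h k (by omega)), h n (by omega)]

/-- parallel vectors of decoded lines have the same index. -/
theorem ix_unique (n : Nat) (ix : Nat → Nat) (c i c' i' : Nat) (h : ckIxL n ix c i = true)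
    (h' : ckIxL n ix c' i' = true) (a b : F4) (ha : a ≠ 0) (hb : b ≠ 0)
    (e : a • vecF n c = b • vecF n c') : i = i' := by
  rw [← ckIxL_sound n ix c i h a ha, ← ckIxL_sound n ix c' i' h' b hb]
  congr 1
  apply encV_congr
  intro k hk
  exact congrFun e ⟨k, hk⟩

noncomputable def ckIx6 (ix : Nat → Nat) (c i : Nat) : Bool := ckIxL 6 ix c i

end Cfsg.Agent.H8
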