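import Cfsg.Agent.H8.Fi23Pres
import Cfsg.Agent.H8.Fi22Pres
import Cfsg.Agent.H8.DoubleCover

/-!
# The subgroup `2·Fi₂₂` of the presented Fischer group `Fi₂₃`
-/

set_option autoImplicit false
set_option linter.all false

namespace Cfsg.Agent.H8.Fi23P

open Cfsg.Spor

/-- letters of the subgroup `⟨a, …, i⟩`. -/
def es3 : List Nat := [0, 1, 2, 3, 4, 5, 6, 8, 9]

/-- the point stabiliser. -/
abbrev W : Subgroup Fi23 := wordGroup s Fi23t.clG

theorem sW_mem (l : Nat) : subS s es3 l ∈ W := by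
  rcases Nat.lt_or_ge l 9 with h | h
  · have h2 : [es3.getD l 31] ∈ Fi23t.clG := by
      rw [clG_eq]
      interval_cases l <;> decide
    have h3 := mem_wordGroup s Fi23t.clG _ h2
    simpa [subS] using h3
  · have h1 : subS s es3 l = 1 := by
      unfold subS
      rw [List.getD_eq_default _ _ (by simpa [es3] using h)]
      exact s_31
    rw [h1]; exact one_mem _

/-- letters of the stabiliser. -/
noncomputable def tW (l : Nat) : W := ⟨subS s es3 l, sW_mem l⟩

theorem z_mem : z ∈ W := by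
  have h : z = ((wpow [1, 2, 3, 4, 5, 6, 7] 9).map (subS s es3)).prod := by
    have e : (wpow [1, 2, 3, 4, 5, 6, 7] 9).map (subS s es3) =
      ((wpow [1, 2, 3, 4, 5, 6, 7] 9).map (fun l => es3.getD l 31)).map s := by
      rw [List.map_map]; rfl
    rw [e]
    have e2 : ((wpow [1, 2, 3, 4, 5, 6, 7] 9).map (fun l => es3.getD l 31)) = zw := by decide
    rw [e2]; rfl
  rw [h]
  apply Subgroup.list_prod_mem
  intro x hx
  obtain ⟨l, _, rfl⟩ := List.mem_map.1 hx
  exact sW_mem l

noncomputable def zW : W := ⟨z, z_mem⟩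

theorem zW_val : (zW : Fi23) = z := rfl

theorem wordGroup_sub_top {G : Type*} [Group G] (s : Nat → G) (gens : List (List Nat))
    (K : Subgroup (wordGroup s gens))
    (h : ∀ w ∈ gens, ∀ x : wordGroup s gens, (x : G) = (w.map s).prod → x ∈ K) : K = ⊤ := by
  rw [eq_top_iff]
  have h1 := Subgroup.closure_closure_coe_preimage (k := {g : G | ∃ w ∈ gens, g = (w.map s).prod})
  have h2 : (⊤ : Subgroup (wordGroup s gens)) = Subgroup.closure
    ((Subtype.val : wordGroup s gens → G) ⁻¹' {g : G | ∃ w ∈ gens, g = (w.map s).prod}) := h1.symm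
  rw [h2, Subgroup.closure_le]
  rintro x ⟨w, hw, hx⟩
  exact h w hw x hx

theorem zW_central (h : W) : h * zW = zW * h := Subtype.ext (z_central h h.2)

theorem s7_ne : s 7 ≠ 1 := by
  intro h
  have h1 : ρ (s 7) = 1 := by rw [h, map_one]
  rw [hρ'] at h1
  have h2 := permL_apply Fi23t.tok 7 (by decide) ⟨0, by decide⟩
  rw [h1] at h2
  revert h2
  decide +kernel

theorem z_ne : z ≠ 1 := by
  intro h
  have h1 := jz
  change (s 7 * z) ^ 3 = 1 at h1
  rw [h, mul_one] at h1
  exact s7_ne (eq_one_of_sq_of_odd (s 7) 1 (s_sq 7) h1)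

theorem orderOf_zW : orderOf zW = 2 := by
  rw [orderOf_eq_prime_iff]
  refine ⟨?_, ?_⟩
  · apply Subtype.ext
    rw [Subgroup.coe_pow, zW_val, pow_two]; exact zz
  · intro h
    have h1 : (zW : Fi23) = ((1 : W) : Fi23) := congrArg Subtype.val h
    rw [zW_val, Subgroup.coe_one] at h1
    exact z_ne h1

instance zN : (Subgroup.zpowers zW).Normal := normal_zpowers_of_central zW zW_central

theorem tW_sq (l : Nat) : tW l * tW l = 1 := Subtype.ext (s_sq _)

theorem coe_prod (w : List Nat) : (((w.map tW).prod : W) : Fi23) = (w.map (subS s es3)).prod := by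
  have h := map_list_prod W.subtype (w.map tW)
  rw [List.map_map] at h
  exact h

noncomputable def tQ (l : Nat) : W ⧸ Subgroup.zpowers zW := QuotientGroup.mk' (Subgroup.zpowers zW) (tW l)

theorem relQ : ∀ p ∈ Fi22at.relsP, ((p.1.map tQ).prod) ^ p.2 = 1 := by
  have h1 : ∀ p ∈ Fi22at.relsP.filter (fun p => p.1 ≠ [1, 2, 3, 4, 5, 6, 7]),
      ((p.1.map (subS s es3)).prod) ^ p.2 = 1 := rels_sub s es3 _ _ base (by decide)
  have e : ∀ w : List Nat, (w.map tQ).prod = QuotientGroup.mk' (Subgroup.zpowers zW) ((w.map tW).prod) := by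
    intro w
    rw [map_list_prod, List.map_map]; rfl
  intro p hp
  rw [e, ← map_pow]
  by_cases h2 : p.1 = [1, 2, 3, 4, 5, 6, 7]
  · have h3 : p.2 = 9 := by
      have : ∀ p ∈ Fi22at.relsP, p.1 = [1, 2, 3, 4, 5, 6, 7] → p.2 = 9 := by decide
      exact this p hp h2
    rw [h2, h3]
    have h4 : (([1, 2, 3, 4, 5, 6, 7] : List Nat).map tW).prod ^ 9 = zW := by
      apply Subtype.ext
      rw [Subgroup.coe_pow, coe_prod]
      have e1 : ([1, 2, 3, 4, 5, 6, 7] : List Nat).map (subS s es3) = ([1, 2, 3, 4, 5, 6, 8] : List Nat).map s := rfl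
      rw [e1, ← wpow_prod]
      rfl
    rw [h4, QuotientGroup.mk'_apply, QuotientGroup.eq_one_iff]
    exact Subgroup.mem_zpowers zW
  · have h3 := h1 p (by
      rw [List.mem_filter]
      exact ⟨hp, by simpa using h2⟩)
    have h4 : ((p.1.map tW).prod) ^ p.2 = 1 := by
      apply Subtype.ext
      rw [Subgroup.coe_pow, coe_prod]
      exact h3
    rw [h4, map_one]

/-- the map from `Fi₂₂` onto the quotient. -/
noncomputable def fQ : Fi22 →* W ⧸ Subgroup.zpowers zW :=
  Fi22P.homOf tQ (fun l => by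
    change QuotientGroup.mk' _ (tW l) * QuotientGroup.mk' _ (tW l) = 1
    rw [← map_mul, tW_sq, map_one]) relQ

theorem fQ_s : ∀ l < 9, fQ (Fi22P.s l) = tQ l := Fi22P.homOf_s _ _ _

theorem gen_form (w : List Nat) (hw : w ∈ Fi23t.clG) : ∃ l < 9, (w.map s).prod = ((tW l : W) : Fi23) := by
  have h2 : ∀ w ∈ Fi23t.clG, ∃ l < 9, w = [es3.getD l 31] := by
    rw [clG_eq]; decide
  obtain ⟨l, hl, rfl⟩ := h2 w hw
  exact ⟨l, hl, by simp [tW, subS]⟩

theorem fQ_surj : Function.Surjective fQ := by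
  have h1 : fQ.range.comap (QuotientGroup.mk' (Subgroup.zpowers zW)) = ⊤ := by
    apply wordGroup_sub_top s Fi23t.clG
    intro w hw x hx
    obtain ⟨l, hl, h2⟩ := gen_form w hw
    have h3 : x = tW l := Subtype.ext (hx.trans h2)
    rw [h3]
    exact ⟨Fi22P.s l, fQ_s l hl⟩
  intro x
  obtain ⟨y, rfl⟩ := QuotientGroup.mk'_surjective _ x
  have h2 : y ∈ fQ.range.comap (QuotientGroup.mk' (Subgroup.zpowers zW)) := by rw [h1]; exact Subgroup.mem_top y
  exact h2

theorem card_W : Nat.card W = 129123503308800 := by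
  have h1 := Subgroup.card_mul_index W
  rw [index_stab.1, card_fi23] at h1
  have key : ∀ a : Nat, a * 31671 = 4089470473293004800 → a = 129123503308800 := fun a h => by omega
  exact key _ h1

theorem card_Q : Nat.card (W ⧸ Subgroup.zpowers zW) = 64561751654400 := by
  have h1 := Subgroup.card_eq_card_quotient_mul_card_subgroup (Subgroup.zpowers zW)
  rw [card_W, Nat.card_zpowers, orderOf_zW] at h1
  have key : ∀ a : Nat, 129123503308800 = a * 2 → a = 64561751654400 := fun a h => by omega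
  exact key _ h1

theorem fQ_bij : Function.Bijective fQ := by
  haveI : Finite (W ⧸ Subgroup.zpowers zW) := Nat.finite_of_card_ne_zero (by rw [card_Q]; decide)
  exact fQ_surj.bijective_of_nat_card_le (by rw [Fi22P.card_fi22, card_Q])

/-- relators other than the central one. -/
def R9 : List (List Nat × Nat) := Fi22at.relsP.filter (fun p => p.1 ≠ [1, 2, 3, 4, 5, 6, 7])

theorem collapse9 {P : Type*} [CommGroup P] (t : Nat → P) (hsq : ∀ l, t l * t l = 1)
    (hrel : ∀ p ∈ R9, ((p.1.map t).prod) ^ p.2 = 1) : ∀ l < 9, t l = 1 := by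
  have cube : ∀ x y : P, x * x = 1 → y * y = 1 → (x * y) ^ 3 = 1 → x = y := by
    intro x y hx hy h
    have h1 : (x * y) * (x * y) = 1 := by
      calc (x * y) * (x * y) = (x * x) * (y * y) := by simp only [mul_assoc, mul_left_comm, mul_comm]
        _ = 1 := by rw [hx, hy, one_mul]
    have h2 : x * y = 1 := eq_one_of_sq_of_odd (x * y) 1 h1 h
    calc x = x * (y * y) := by rw [hy, mul_one]
      _ = y := by rw [← mul_assoc, h2, one_mul]
  have step : ∀ i j, ([i, j], 3) ∈ R9 → t i = t j := by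
    intro i j hm
    have r := hrel _ hm
    exact cube _ _ (hsq _) (hsq _) (by simpa using r)
  have h1 := step 0 1 (by decide)
  have h2 := step 1 2 (by decide)
  have h3 := step 2 3 (by decide)
  have h4 := step 3 4 (by decide)
  have h7 := step 3 7 (by decide)
  have h8 := step 7 8 (by decide)
  have h5 := step 4 5 (by decide)
  have h6 := step 5 6 (by decide)
  have r := hrel ([0, 1, 2, 3, 4, 5, 7], 9) (by decide)
  have e : (([0, 1, 2, 3, 4, 5, 7] : List Nat).map t).prod = t 0 := by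
    simp only [List.map_cons, List.map_nil, List.prod_cons, List.prod_nil, mul_one]
    rw [← h7, ← h5, ← h4, ← h3, ← h2, ← h1]
    simp only [hsq, mul_one]
  have r' : ((([0, 1, 2, 3, 4, 5, 7] : List Nat).map t).prod) ^ 9 = 1 := r
  rw [e] at r'
  have h0 := eq_one_of_sq_of_odd (t 0) 4 (hsq 0) r'
  intro l hl
  interval_cases l
  · exact h0
  · rw [← h1, h0]
  · rw [← h2, ← h1, h0]
  · rw [← h3, ← h2, ← h1, h0]
  · rw [← h4, ← h3, ← h2, ← h1, h0]
  · rw [← h5, ← h4, ← h3, ← h2, ← h1, h0]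
  · rw [← h6, ← h5, ← h4, ← h3, ← h2, ← h1, h0]
  · rw [← h7, ← h3, ← h2, ← h1, h0]
  · rw [← h8, ← h7, ← h3, ← h2, ← h1, h0]

theorem letterGroup_tW : letterGroup tW 9 = ⊤ := by
  apply wordGroup_sub_top s Fi23t.clG
  intro w hw x hx
  obtain ⟨l, hl, h2⟩ := gen_form w hw
  have h3 : x = tW l := Subtype.ext (hx.trans h2)
  rw [h3]
  exact Subgroup.subset_closure ⟨l, hl, rfl⟩

theorem W_perfect : commutator W = ⊤ := by
  apply perfect_of_letters tW 9 letterGroup_tW
  apply collapse9 (fun l => (Abelianization.of (tW l) : Abelianization W))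
  · intro l
    rw [← map_mul, tW_sq, map_one]
  · intro p hp
    have h1 : ∀ p ∈ R9, ((p.1.map (subS s es3)).prod) ^ p.2 = 1 := rels_sub s es3 _ _ base (by decide)
    have h4 : ((p.1.map tW).prod) ^ p.2 = 1 := by
      apply Subtype.ext
      rw [Subgroup.coe_pow, coe_prod]
      exact h1 p hp
    have h2 := congrArg (Abelianization.of (G := W)) h4
    rw [map_pow, map_list_prod, List.map_map, map_one] at h2
    exact h2

theorem double_cover : Cfsg.IsNonsplitDoubleCover W Fi22 :=
  nonsplit_of zW orderOf_zW zW_central zN (MulEquiv.ofBijective fQ fQ_bij).symm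
    (fun x hx => Fi22P.center_trivial x hx) W_perfect

end Cfsg.Agent.H8.Fi23P
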