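import Mathlib

/-!
# Counting fixed points
-/

set_option autoImplicit false
set_option linter.all false

namespace Cfsg.Agent.H8.FC

open MulAction

section

variable {G : Type*} [Group G] [Finite G] (Ω : Type*) [Fintype Ω] [MulAction G Ω]

/-- number of fixed points -/
noncomputable def fx (g : G) : ℕ := (fixedBy Ω g).ncard

theorem fx_one : fx Ω (1 : G) = Fintype.card Ω := by
  unfold fx
  rw [fixedBy_one_eq_univ, Set.ncard_univ, Nat.card_eq_fintype_card]

theorem fx_conj (g h : G) : fx Ω (h * g * h⁻¹) = fx Ω g := by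
  unfold fx
  rw [← smul_fixedBy, Set.ncard_smul_set]

theorem fx_lt [FaithfulSMul G Ω] (g : G) (hg : g ≠ 1) : fx Ω g < Fintype.card Ω := by
  unfold fx
  rw [← Nat.card_eq_fintype_card, ← Set.ncard_univ]
  apply Set.ncard_lt_ncard
  · rw [Set.ssubset_univ_iff]
    intro h
    apply hg
    apply FaithfulSMul.eq_of_smul_eq_smul (α := Ω)
    intro p
    rw [one_smul]
    have : p ∈ fixedBy Ω g := by rw [h]; exact Set.mem_univ p
    exact this
  · exact Set.toFinite _

theorem burnside (H : Subgroup G) (f : ℕ) (hH : ∀ g ∈ H, g ≠ 1 → fx Ω g = f) :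
    ∃ k, Fintype.card Ω + (Nat.card H - 1) * f = k * Nat.card H ∧
      ((∀ p : Ω, ∃ g ∈ H, g • p ≠ p) → ∀ m, (∀ d, d ∣ Nat.card H → d ≠ 1 → m ≤ d) → m * k ≤ Fintype.card Ω) := by
  classical
  haveI : Fintype H := Fintype.ofFinite H
  haveI : ∀ a : H, Fintype (fixedBy Ω a) := fun a => Fintype.ofFinite _
  haveI : Fintype (Quotient (orbitRel H Ω)) := Fintype.ofFinite _
  refine ⟨Fintype.card (Quotient (orbitRel H Ω)), ?_, ?_⟩
  · have h1 := sum_card_fixedBy_eq_card_orbits_mul_card_group H Ω
    rw [Nat.card_eq_fintype_card (α := H), ← h1]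
    have h2 : ∀ a : H, Fintype.card (fixedBy Ω a) = if a = 1 then Fintype.card Ω else f := by
      intro a
      have h3 : Fintype.card (fixedBy Ω a) = fx Ω (a : G) := by
        unfold fx
        rw [← Nat.card_eq_fintype_card, Nat.card_coe_set_eq]
        rfl
      rw [h3]
      by_cases ha : a = 1
      · rw [if_pos ha, ha]; exact fx_one Ω
      · rw [if_neg ha]; exact hH a a.2 (fun h => ha (Subtype.ext h))
    rw [Finset.sum_congr rfl (fun a _ => h2 a), ← Finset.add_sum_erase _ _ (Finset.mem_univ (1 : H)), if_pos rfl,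
      Finset.sum_congr rfl (g := fun _ => f) (fun a ha => by rw [if_neg (Finset.ne_of_mem_erase ha)]),
      Finset.sum_const, Finset.card_erase_of_mem (Finset.mem_univ _), Finset.card_univ, smul_eq_mul]
  · intro hfree m hm
    have h1 : Fintype.card Ω = ∑ ω : Quotient (orbitRel H Ω), Fintype.card (orbit H (Quotient.out ω)) := by
      rw [← Fintype.card_sigma]
      exact Fintype.card_congr (selfEquivSigmaOrbits H Ω)
    rw [h1, mul_comm, ← smul_eq_mul, ← Finset.card_univ, ← Finset.sum_const]
    apply Finset.sum_le_sum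
    intro ω _
    set p : Ω := Quotient.out ω with hp
    have h2 := card_orbit_mul_card_stabilizer_eq_card_group H p
    apply hm
    · rw [Nat.card_eq_fintype_card, ← h2]; exact Dvd.intro _ rfl
    · intro h3
      obtain ⟨g, hg, hgp⟩ := hfree p
      apply hgp
      rw [Fintype.card_eq_one_iff] at h3
      obtain ⟨x, hx⟩ := h3
      have e1 := hx ⟨p, mem_orbit_self p⟩
      have e2 := hx ⟨(⟨g, hg⟩ : H) • p, mem_orbit p _⟩
      have e3 : ((⟨g, hg⟩ : H) • p) = p := congrArg Subtype.val (e2.trans e1.symm)
      exact e3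

theorem two_trans_dvd (h : IsMultiplyPretransitive G Ω 2) (h2 : 2 ≤ Fintype.card Ω) :
    Fintype.card Ω * (Fintype.card Ω - 1) ∣ Nat.card G := by
  classical
  have hne : Nonempty (Fin 2 ↪ Ω) := by
    apply Function.Embedding.nonempty_of_card_le
    rwa [Fintype.card_fin]
  obtain ⟨e⟩ := hne
  haveI : IsPretransitive G (Fin 2 ↪ Ω) := h
  have h1 := MulAction.index_stabilizer_of_transitive G e
  have h3 := (stabilizer G e).index_dvd_card
  rw [h1, Nat.card_eq_fintype_card, Fintype.card_embedding_eq, Fintype.card_fin] at h3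
  have e4 : (Fintype.card Ω).descFactorial 2 = Fintype.card Ω * (Fintype.card Ω - 1) := by
    rw [Nat.descFactorial_succ, Nat.descFactorial_succ, Nat.descFactorial_zero]
    simp [mul_comm]
  rwa [e4] at h3

theorem trans_stab (h : IsMultiplyPretransitive G Ω 2) (h2 : 2 ≤ Fintype.card Ω) (p : Ω) :
    Nat.card (stabilizer G p) * Fintype.card Ω = Nat.card G := by
  haveI := h
  haveI : IsPretransitive G Ω := isPretransitive_of_is_two_pretransitive
  have h1 := MulAction.index_stabilizer_of_transitive G p
  rw [← Nat.card_eq_fintype_card, ← h1]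
  exact Subgroup.card_mul_index _

/-- an element of order three normalising another without common fixed points -/
theorem three_dvd (y w : G) (k j : ℕ) (hw : w ^ 3 = 1) (h1 : w⁻¹ * y * w = y ^ k) (h2 : y = (w⁻¹ * y * w) ^ j)
    (hf : fx Ω w = 0) : 3 ∣ fx Ω y := by
  classical
  have hiff : ∀ p : Ω, y • (w • p) = w • p ↔ y • p = p := by
    intro p
    have e : y • (w • p) = w • p ↔ (w⁻¹ * y * w) • p = p := by
      rw [mul_smul, mul_smul, inv_smul_eq_iff]
    rw [e]
    constructor
    · intro h
      have hp : ∀ n : ℕ, (w⁻¹ * y * w) ^ n • p = p := by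
        intro n
        induction n with
        | zero => rw [pow_zero, one_smul]
        | succ n ih => rw [pow_succ, mul_smul, h, ih]
      rw [h2]; exact hp j
    · intro h
      have hp : ∀ n : ℕ, y ^ n • p = p := by
        intro n
        induction n with
        | zero => rw [pow_zero, one_smul]
        | succ n ih => rw [pow_succ, mul_smul, h, ih]
      rw [h1]; exact hp k
  by_contra hnd
  let σ : Equiv.Perm {p : Ω // y • p = p} := (MulAction.toPerm w).subtypePerm hiff
  haveI : Fact (Nat.Prime 3) := ⟨Nat.prime_three⟩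
  have hcard : Fintype.card {p : Ω // y • p = p} = fx Ω y := by
    unfold fx
    rw [← Nat.card_eq_fintype_card]
    rfl
  obtain ⟨a, ha⟩ := Equiv.Perm.exists_fixed_point_of_prime (p := 3) (n := 1) (by rw [hcard]; exact hnd) (σ := σ) (by
    rw [pow_one]
    ext a
    have e : ∀ n : ℕ, (((σ ^ n) a : {p : Ω // y • p = p}) : Ω) = w ^ n • (a : Ω) := by
      intro n
      induction n with
      | zero => rw [pow_zero, pow_zero, one_smul]; rfl
      | succ n ih =>
        rw [pow_succ', pow_succ', mul_smul, ← ih]
        rfl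
    rw [e, hw, one_smul]
    rfl)
  have ha' : w • (a : Ω) = a := congrArg Subtype.val ha
  have : (fixedBy Ω w).ncard = 0 := hf
  rw [Set.ncard_eq_zero (Set.toFinite _)] at this
  have hm : (a : Ω) ∈ fixedBy Ω w := ha'
  rw [this] at hm
  exact hm

theorem fx_mod (p : ℕ) [Fact p.Prime] (y : G) (hy : y ^ p = 1) : fx Ω y ≡ Fintype.card Ω [MOD p] := by
  classical
  let F : Function.End Ω := fun a => y • a
  have h := Equiv.Perm.card_fixedPoints_modEq (f := F) (p := p) (n := 1) (by
    rw [pow_one]
    have e : ∀ n : ℕ, ∀ a : Ω, (F ^ n) a = y ^ n • a := by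
      intro n
      induction n with
      | zero => intro a; rw [pow_zero, pow_zero, one_smul]; rfl
      | succ n ih =>
        intro a
        rw [pow_succ', pow_succ', mul_smul, ← ih]
        rfl
    funext a
    rw [e, hy, one_smul]
    rfl)
  have e : Fintype.card (Function.fixedPoints F) = fx Ω y := by
    unfold fx
    rw [← Nat.card_eq_fintype_card]
    rfl
  rw [e] at h
  exact h.symm

end

end Cfsg.Agent.H8.FC
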