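import Cfsg.Agent.H8.T.HeCz
import Cfsg.Agent.H8.T.HeCb
import Cfsg.Agent.H8.HePres

/-!
# Centraliser of an involution of He
-/

set_option Elab.async false
set_option autoImplicit false
set_option linter.all false
set_option maxRecDepth 100000
set_option maxHeartbeats 2000000

namespace Cfsg.Agent.H8.HeC

open Cfsg.Spor
open Cfsg.Agent.H8

noncomputable def s : Nat → He := OT.extI Cfsg.Agent.H8.HeP.s 7 bws

theorem s_lt (l : Nat) (h : l < 7) : s l = Cfsg.Agent.H8.HeP.s l := OT.extI_lt _ _ _ l h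

noncomputable def ρ : He →* Equiv.Perm (Fin 2058) := Cfsg.Agent.H8.HeP.ρ₂

theorem hρ : ∀ l < 41, ρ (s l) = permL tok l :=
  OT.extI_rho tok ρ bws Cfsg.Agent.H8.HeP.s 7 (by
    intro l hl
    have h0 : ρ (Cfsg.Agent.H8.HeP.s l) = permL Cfsg.Agent.H8.Het.tok l := Cfsg.Agent.H8.HeP.hρ₂ l hl
    rw [h0]
    ext j
    rw [permL_apply Cfsg.Agent.H8.Het.tok l hl, permL_apply tok l (lt_trans hl (by decide)), hii l hl,
      hTT _ (Cfsg.Agent.H8.Het.tok.inv_lt l hl)]) (by decide) hwb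

theorem inj : Function.Injective ρ := injective_of_simple Cfsg.Agent.H8.HeP.simple _ (Cfsg.Agent.H8.HeP.s 1) (by
    intro h
    have h1 := rho_word Cfsg.Agent.H8.HeP.s Cfsg.Agent.H8.Het.tok Cfsg.Agent.H8.HeP.ρ₂ Cfsg.Agent.H8.HeP.hρ₂ [1] (by decide) ⟨0, by decide⟩
    have h2 : Cfsg.Agent.H8.HeP.ρ₂ (([1] : List Nat).map Cfsg.Agent.H8.HeP.s).prod = 1 := by
      rw [List.map_singleton, List.prod_singleton]; exact h
    rw [h2] at h1
    exact absurd h1 (by decide +kernel))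

theorem cardG : Nat.card He = 4030387200 := Cfsg.Agent.H8.HeP.card_he

instance finG : Finite He := Nat.finite_of_card_ne_zero (by rw [cardG]; decide)

noncomputable def z : He := (([35] : List Nat).map s).prod

theorem Zchain : wordGroup s ZG0 = ⊤ ∧ (∀ g ∈ wordGroup s ZG0, ZQ0 (act ρ ⟨69, by decide⟩ g : Fin 2058) ≠ 0) ∧ (∀ g ∈ wordGroup s ZG0, act ρ ⟨69, by decide⟩ g = ⟨69, by decide⟩ → g ∈ wordGroup s ZG1) ∧
    (∀ g ∈ wordGroup s ZG1, ZQ1 (act ρ ⟨843, by decide⟩ g : Fin 2058) ≠ 0) ∧ (∀ g ∈ wordGroup s ZG1, act ρ ⟨843, by decide⟩ g = ⟨843, by decide⟩ → g ∈ wordGroup s ZG2) ∧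
    (∀ g ∈ wordGroup s ZG2, ZQ2 (act ρ ⟨14, by decide⟩ g : Fin 2058) ≠ 0) ∧ (∀ g ∈ wordGroup s ZG2, act ρ ⟨14, by decide⟩ g = ⟨14, by decide⟩ → g ∈ wordGroup s ZG3) ∧
    (∀ g ∈ wordGroup s ZG3, ZQ3 (act ρ ⟨84, by decide⟩ g : Fin 2058) ≠ 0) ∧ (∀ g ∈ wordGroup s ZG3, act ρ ⟨84, by decide⟩ g = ⟨84, by decide⟩ → g ∈ wordGroup s ZG4) ∧
    (∀ g ∈ wordGroup s ZG4, ZQ4 (act ρ ⟨345, by decide⟩ g : Fin 2058) ≠ 0) ∧ (∀ g ∈ wordGroup s ZG4, act ρ ⟨345, by decide⟩ g = ⟨345, by decide⟩ → g ∈ wordGroup s ZG5) ∧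
    (∀ g ∈ wordGroup s ZG5, ZQ5 (act ρ ⟨1716, by decide⟩ g : Fin 2058) ≠ 0) ∧ (∀ g ∈ wordGroup s ZG5, act ρ ⟨1716, by decide⟩ g = ⟨1716, by decide⟩ → g ∈ wordGroup s ZG6) ∧
    (∀ g ∈ wordGroup s ZG6, ZQ6 (act ρ ⟨2, by decide⟩ g : Fin 2058) ≠ 0) ∧ (∀ g ∈ wordGroup s ZG6, act ρ ⟨2, by decide⟩ g = ⟨2, by decide⟩ → g ∈ wordGroup s ([] : List (List Nat))) ∧ Nat.card (wordGroup s ZG6) = 2 := by
  have k0 := card_step s tok ρ hρ ZQ0 2058 ZG0 ZG1 (by decide) ⟨69, by decide⟩ Zr0 Zc0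
    (by decide) (by decide +kernel) inferInstance
  have k1 := card_step s tok ρ hρ ZQ1 1360 ZG1 ZG2 (by decide) ⟨843, by decide⟩ Zr1 Zc1
    (by decide) (by decide +kernel) inferInstance
  have k2 := card_step s tok ρ hρ ZQ2 90 ZG2 ZG3 (by decide) ⟨14, by decide⟩ Zr2 Zc2
    (by decide) (by decide +kernel) inferInstance
  have k3 := card_step s tok ρ hρ ZQ3 2 ZG3 ZG4 (by decide) ⟨84, by decide⟩ Zr3 Zc3
    (by decide) (by decide +kernel) inferInstance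
  have k4 := card_step s tok ρ hρ ZQ4 2 ZG4 ZG5 (by decide) ⟨345, by decide⟩ Zr4 Zc4
    (by decide) (by decide +kernel) inferInstance
  have k5 := card_step s tok ρ hρ ZQ5 2 ZG5 ZG6 (by decide) ⟨1716, by decide⟩ Zr5 Zc5
    (by decide) (by decide +kernel) inferInstance
  have k6 := card_step s tok ρ hρ ZQ6 2 ZG6 ([] : List (List Nat)) (by decide) ⟨2, by decide⟩ Zr6 Zc6
    (by decide) (by decide +kernel) inferInstance
  have k : Nat.card (wordGroup s ZG0) ≤ 4030387200 := by rw [← cardG]; exact Subgroup.card_le_card_group _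
  have kl : 0 < Nat.card (wordGroup s ([] : List (List Nat))) := Nat.card_pos
  have e0 : Nat.card (wordGroup s ZG0) = 4030387200 := by omega
  have e1 : Nat.card (wordGroup s ZG1) = 1958400 := by omega
  have e2 : Nat.card (wordGroup s ZG2) = 1440 := by omega
  have e3 : Nat.card (wordGroup s ZG3) = 16 := by omega
  have e4 : Nat.card (wordGroup s ZG4) = 8 := by omega
  have e5 : Nat.card (wordGroup s ZG5) = 4 := by omega
  have e6 : Nat.card (wordGroup s ZG6) = 2 := by omega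
  have e7 : Nat.card (wordGroup s ([] : List (List Nat))) = 1 := by omega
  have x0 := exact_step s tok ρ ZQ0 2058 ZG0 ZG1 (by decide) ⟨69, by decide⟩ Zr0 Zc0
    (by decide) (by decide +kernel) inferInstance hρ (by rw [e0, e1])
  have x1 := exact_step s tok ρ ZQ1 1360 ZG1 ZG2 (by decide) ⟨843, by decide⟩ Zr1 Zc1
    (by decide) (by decide +kernel) inferInstance hρ (by rw [e1, e2])
  have x2 := exact_step s tok ρ ZQ2 90 ZG2 ZG3 (by decide) ⟨14, by decide⟩ Zr2 Zc2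
    (by decide) (by decide +kernel) inferInstance hρ (by rw [e2, e3])
  have x3 := exact_step s tok ρ ZQ3 2 ZG3 ZG4 (by decide) ⟨84, by decide⟩ Zr3 Zc3
    (by decide) (by decide +kernel) inferInstance hρ (by rw [e3, e4])
  have x4 := exact_step s tok ρ ZQ4 2 ZG4 ZG5 (by decide) ⟨345, by decide⟩ Zr4 Zc4
    (by decide) (by decide +kernel) inferInstance hρ (by rw [e4, e5])
  have x5 := exact_step s tok ρ ZQ5 2 ZG5 ZG6 (by decide) ⟨1716, by decide⟩ Zr5 Zc5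
    (by decide) (by decide +kernel) inferInstance hρ (by rw [e5, e6])
  have x6 := exact_step s tok ρ ZQ6 2 ZG6 ([] : List (List Nat)) (by decide) ⟨2, by decide⟩ Zr6 Zc6
    (by decide) (by decide +kernel) inferInstance hρ (by rw [e6, e7])
  exact ⟨Subgroup.eq_top_of_card_eq _ (by rw [e0, cardG]), x0.1, x0.2, x1.1, x1.2, x2.1, x2.2, x3.1, x3.2, x4.1, x4.2, x5.1, x5.2, x6.1, x6.2, e6⟩

theorem Zbot : wordGroup s ([] : List (List Nat)) = ⊥ := by
  unfold wordGroup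
  rw [eq_bot_iff, Subgroup.closure_le]
  rintro g ⟨w, hw, _⟩
  simp at hw

/-- an element fixing the base is trivial. -/
theorem Zbase (g : He) (h0 : act ρ ⟨69, by decide⟩ g = (⟨69, by decide⟩ : Fin 2058)) (h1 : act ρ ⟨843, by decide⟩ g = (⟨843, by decide⟩ : Fin 2058)) (h2 : act ρ ⟨14, by decide⟩ g = (⟨14, by decide⟩ : Fin 2058)) (h3 : act ρ ⟨84, by decide⟩ g = (⟨84, by decide⟩ : Fin 2058)) (h4 : act ρ ⟨345, by decide⟩ g = (⟨345, by decide⟩ : Fin 2058)) (h5 : act ρ ⟨1716, by decide⟩ g = (⟨1716, by decide⟩ : Fin 2058)) (h6 : act ρ ⟨2, by decide⟩ g = (⟨2, by decide⟩ : Fin 2058)) : g = 1 := by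
  have g0 : g ∈ wordGroup s ZG0 := by rw [Zchain.1]; exact Subgroup.mem_top g
  have g1 := Zchain.2.2.1 g g0 h0
  have g2 := Zchain.2.2.2.2.1 g g1 h1
  have g3 := Zchain.2.2.2.2.2.2.1 g g2 h2
  have g4 := Zchain.2.2.2.2.2.2.2.2.1 g g3 h3
  have g5 := Zchain.2.2.2.2.2.2.2.2.2.2.1 g g4 h4
  have g6 := Zchain.2.2.2.2.2.2.2.2.2.2.2.2.1 g g5 h5
  have g7 := Zchain.2.2.2.2.2.2.2.2.2.2.2.2.2.2.1 g g6 h6
  rw [Zbot] at g7
  exact Subgroup.mem_bot.1 g7


theorem weq (u v : List Nat) (hu : ∀ l ∈ u, l < 41) (hv : ∀ l ∈ v, l < 41)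
    (h : ∀ i ∈ ([69, 843, 14, 84, 345, 1716, 2] : List Nat), trN T' u i = trN T' v i) : (u.map s).prod = (v.map s).prod := by
  have key : ∀ b : Fin 2058, (b : Nat) ∈ ([69, 843, 14, 84, 345, 1716, 2] : List Nat) → act ρ b ((u.map s).prod * ((v.map s).prod)⁻¹) = b := by
    intro b hb
    have h1 : act ρ b (u.map s).prod = act ρ b (v.map s).prod := by
      apply Fin.ext
      rw [act_word s tok ρ hρ b u hu, act_word s tok ρ hρ b v hv]
      exact h b hb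
    rw [act_mul, h1, ← act_mul, mul_inv_cancel, act_one]
  exact mul_inv_eq_one.1 (Zbase _ (key ⟨69, by decide⟩ (by decide)) (key ⟨843, by decide⟩ (by decide)) (key ⟨14, by decide⟩ (by decide)) (key ⟨84, by decide⟩ (by decide)) (key ⟨345, by decide⟩ (by decide)) (key ⟨1716, by decide⟩ (by decide)) (key ⟨2, by decide⟩ (by decide)))

/-- the order of the centraliser is at most 21504. -/
theorem cent_le : Nat.card (Subgroup.centralizer ({z} : Set He)) ≤ 21504 := by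
  have c0 := cent_step s tok ρ hρ [35] (by decide) (wordGroup s ZG0) (wordGroup s ZG1) ⟨69, by decide⟩ ZQ0 42
    Zchain.2.1 Zchain.2.2.1 (by decide +kernel) Zf0
  have c1 := cent_step s tok ρ hρ [35] (by decide) (wordGroup s ZG1) (wordGroup s ZG2) ⟨843, by decide⟩ ZQ1 16
    Zchain.2.2.2.1 Zchain.2.2.2.2.1 (by decide +kernel) Zf1
  have c2 := cent_step s tok ρ hρ [35] (by decide) (wordGroup s ZG2) (wordGroup s ZG3) ⟨14, by decide⟩ ZQ2 2
    Zchain.2.2.2.2.2.1 Zchain.2.2.2.2.2.2.1 (by decide +kernel) Zf2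
  have c3 := cent_step s tok ρ hρ [35] (by decide) (wordGroup s ZG3) (wordGroup s ZG4) ⟨84, by decide⟩ ZQ3 2
    Zchain.2.2.2.2.2.2.2.1 Zchain.2.2.2.2.2.2.2.2.1 (by decide +kernel) Zf3
  have c4 := cent_step s tok ρ hρ [35] (by decide) (wordGroup s ZG4) (wordGroup s ZG5) ⟨345, by decide⟩ ZQ4 2
    Zchain.2.2.2.2.2.2.2.2.2.1 Zchain.2.2.2.2.2.2.2.2.2.2.1 (by decide +kernel) Zf4
  have c5 := cent_step s tok ρ hρ [35] (by decide) (wordGroup s ZG5) (wordGroup s ZG6) ⟨1716, by decide⟩ ZQ5 2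
    Zchain.2.2.2.2.2.2.2.2.2.2.2.1 Zchain.2.2.2.2.2.2.2.2.2.2.2.2.1 (by decide +kernel) Zf5
  have cl : Nat.card ↥(Subgroup.centralizer ({(([35] : List Nat).map s).prod} : Set He) ⊓ wordGroup s ZG6) ≤ 2 := by
    rw [← Zchain.2.2.2.2.2.2.2.2.2.2.2.2.2.2.2]
    exact Nat.card_le_card_of_injective _ (Subgroup.inclusion_injective inf_le_right)
  rw [Zchain.1, inf_top_eq] at c0
  unfold z
  omega

end Cfsg.Agent.H8.HeC
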