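import Cfsg.Agent.H8.T.HeLab
import Cfsg.Agent.H8.HeCent

/-!
# An involution of He whose centraliser is that of a transvection of `SL(5,2)`
-/

set_option Elab.async false
set_option autoImplicit false
set_option linter.all false
set_option maxRecDepth 100000
set_option maxHeartbeats 1000000

namespace Cfsg.Agent.H8.HeL

open Cfsg.Spor Matrix
open Cfsg.Agent.H8 Cfsg.Agent.H8.HeC Cfsg.Agent.H8.Lab

theorem wd (l : Nat) : (([l] : List Nat).map s).prod = s l := by
  rw [List.map_singleton, List.prod_singleton]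

theorem zs : z = s 35 := wd 35

theorem ord_z : orderOf z = 2 := by
  apply orderOf_eq_prime
  · have h := weq [35, 35] [] (by decide) (by decide) (by decide +kernel)
    rw [List.map_cons, List.prod_cons, wd, List.map_nil, List.prod_nil] at h
    rw [pow_two, zs]
    exact h
  · intro h1
    have h := act_word s tok ρ hρ ⟨2, by decide⟩ [35] (by decide)
    change ((act ρ ⟨2, by decide⟩ z : Fin 2058) : ℕ) = _ at h
    rw [h1, act_one] at h
    exact absurd h (by decide +kernel)

theorem hck : ∀ i < 5376, ckInc 2058 4096 P1 P2 LB i = true := fun i hi => allR_zero _ _ ci i hi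

theorem iso (t : SL5) (ht : (t : Matrix (Fin 5) (Fin 5) (ZMod 2)) = Matrix.transvection 0 1 1) :
    Nonempty (↥(Subgroup.centralizer ({z} : Set He)) ≃* ↥(Subgroup.centralizer ({t} : Set SL5))) := by
  have h1 : Rl (act2 ρ) (fP 5376 4096 P1 P2 LB hck) (fun i : Fin 5376 => labOf (LB i)) (s 37) M1 :=
    Rl_of_ck ρ 5376 4096 P1 P2 LB hck s tok hρ 37 (by decide) N0 RM0 M1 (by decide +kernel) (fun i hi => allR_zero _ _ cl0 i hi)
  have h2 : Rl (act2 ρ) (fP 5376 4096 P1 P2 LB hck) (fun i : Fin 5376 => labOf (LB i)) (s 39) M2 :=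
    Rl_of_ck ρ 5376 4096 P1 P2 LB hck s tok hρ 39 (by decide) N1 RM1 M2 (by decide +kernel) (fun i hi => allR_zero _ _ cl1 i hi)
  have h3 : Rl (act2 ρ) (fP 5376 4096 P1 P2 LB hck) (fun i : Fin 5376 => labOf (LB i)) (s 35) t :=
    Rl_of_ck ρ 5376 4096 P1 P2 LB hck s tok hρ 35 (by decide) N2 RM2 t (by rw [ht]; decide +kernel) (fun i hi => allR_zero _ _ cl2 i hi)
  have e1 : s 37 * z = z * s 37 := by
    have h := weq [37, 35] [35, 37] (by decide) (by decide) (by decide +kernel)
    rw [List.map_cons, List.prod_cons, wd, List.map_cons, List.prod_cons, wd] at h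
    rw [zs]; exact h
  have e2 : s 39 * z = z * s 39 := by
    have h := weq [39, 35] [35, 39] (by decide) (by decide) (by decide +kernel)
    rw [List.map_cons, List.prod_cons, wd, List.map_cons, List.prod_cons, wd] at h
    rw [zs]; exact h
  refine iso_of_labels (act2 ρ) (act2_one ρ) (act2_mul ρ) (fP 5376 4096 P1 P2 LB hck) (fun i : Fin 5376 => labOf (LB i))
    (fP_inj 5376 4096 P1 P2 LB hck) (span_of_labels 5376 LB csp) z (s 37) (s 39) M1 M2 t ht h1 h2 (by rw [zs]; exact h3) e1 e2
    cent_le M_card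

end Cfsg.Agent.H8.HeL
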