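import Cfsg.Agent.S0445
import Cfsg.Agent.H8.OutTool2

/-!
# Isomorphisms with the centraliser of a transvection of `SL(5,2)` from labelled points
-/

set_option autoImplicit false
set_option linter.all false

namespace Cfsg.Agent.H8.Lab

open Matrix

abbrev V5 := Fin 5 → ZMod 2
abbrev SL5 := Matrix.SpecialLinearGroup (Fin 5) (ZMod 2)

section

variable {G : Type*} [Group G] {X : Type*} (A : X → G → X) (hA1 : ∀ x, A x 1 = x)
  (hAm : ∀ x g h, A x (g * h) = A (A x g) h) {m : ℕ} (f : Fin m → X) (lab : Fin m → V5)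

def Rl (g : G) (M : SL5) : Prop := ∀ i, ∃ j, A (f i) g = f j ∧ lab j = (lab i) ᵥ* (M : Matrix (Fin 5) (Fin 5) (ZMod 2))

include hAm in
theorem Rl.mul {g h : G} {M N : SL5} (h1 : Rl A f lab g M) (h2 : Rl A f lab h N) : Rl A f lab (g * h) (M * N) := by
  intro i
  obtain ⟨j, hj1, hj2⟩ := h1 i
  obtain ⟨k, hk1, hk2⟩ := h2 j
  refine ⟨k, by rw [hAm, hj1, hk1], ?_⟩
  rw [hk2, hj2, Matrix.vecMul_vecMul]
  rfl

include hA1 in
theorem Rl.one : Rl A f lab (1 : G) 1 := by
  intro i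
  refine ⟨i, hA1 _, ?_⟩
  have : ((1 : SL5) : Matrix (Fin 5) (Fin 5) (ZMod 2)) = 1 := rfl
  rw [this, Matrix.vecMul_one]

theorem Rl.unique (hf : Function.Injective f)
    (hsp : ∀ M N : Matrix (Fin 5) (Fin 5) (ZMod 2), (∀ i, (lab i) ᵥ* M = (lab i) ᵥ* N) → M = N)
    {g : G} {M N : SL5} (h1 : Rl A f lab g M) (h2 : Rl A f lab g N) : M = N := by
  apply Subtype.ext
  apply hsp
  intro i
  obtain ⟨j, hj1, hj2⟩ := h1 i
  obtain ⟨k, hk1, hk2⟩ := h2 i
  have : j = k := hf (by rw [← hj1, hk1])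
  rw [← hj2, ← hk2, this]

include hA1 hAm in
theorem exists_of_closure [Finite G] (S : Set G) (h : ∀ g ∈ S, ∃ M, Rl A f lab g M) :
    ∀ g ∈ Subgroup.closure S, ∃ M, Rl A f lab g M := by
  have hpow : ∀ (g : G) (M : SL5), Rl A f lab g M → ∀ k : ℕ, Rl A f lab (g ^ k) (M ^ k) := by
    intro g M hg k
    induction k with
    | zero => rw [pow_zero, pow_zero]; exact Rl.one A hA1 f lab
    | succ k ih => rw [pow_succ, pow_succ]; exact ih.mul A hAm f lab hg
  intro g hg
  induction hg using Subgroup.closure_induction with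
  | mem x hx => exact h x hx
  | one => exact ⟨1, Rl.one A hA1 f lab⟩
  | mul x y _ _ hx hy =>
    obtain ⟨M, hM⟩ := hx
    obtain ⟨N, hN⟩ := hy
    exact ⟨M * N, hM.mul A hAm f lab hN⟩
  | inv x _ hx =>
    obtain ⟨M, hM⟩ := hx
    have e : x⁻¹ = x ^ (orderOf x - 1) := by
      rw [eq_comm, ← mul_eq_one_iff_eq_inv, ← pow_succ, Nat.sub_add_cancel (orderOf_pos x), pow_orderOf_eq_one]
    rw [e]
    exact ⟨_, hpow x M hM _⟩

include hA1 hAm in
theorem iso_of_labels [Finite G] (hf : Function.Injective f)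
    (hsp : ∀ M N : Matrix (Fin 5) (Fin 5) (ZMod 2), (∀ i, (lab i) ᵥ* M = (lab i) ᵥ* N) → M = N)
    (z c1 c2 : G) (M1 M2 s : SL5)
    (hs : (s : Matrix (Fin 5) (Fin 5) (ZMod 2)) = Matrix.transvection 0 1 1)
    (h1 : Rl A f lab c1 M1) (h2 : Rl A f lab c2 M2) (hz : Rl A f lab z s)
    (hc1 : c1 * z = z * c1) (hc2 : c2 * z = z * c2)
    (hcard : Nat.card (Subgroup.centralizer ({z} : Set G)) ≤ 21504)
    (hM : 21504 ≤ Nat.card (Subgroup.closure ({M1, M2} : Set SL5))) :
    Nonempty (↥(Subgroup.centralizer ({z} : Set G)) ≃* ↥(Subgroup.centralizer ({s} : Set SL5))) := by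
  classical
  set C := Subgroup.centralizer ({z} : Set G) with hC
  set H := Subgroup.closure ({c1, c2} : Set G) with hH
  have hHC : H ≤ C := by
    rw [hH, Subgroup.closure_le]
    rintro g (rfl | rfl)
    · exact Subgroup.mem_centralizer_singleton_iff.2 hc1
    · exact Subgroup.mem_centralizer_singleton_iff.2 hc2
  have hex : ∀ g ∈ H, ∃ M, Rl A f lab g M := by
    apply exists_of_closure A hA1 hAm f lab
    rintro g (rfl | rfl)
    · exact ⟨M1, h1⟩
    · exact ⟨M2, h2⟩
  have huniq : ∀ {g : G} {M N : SL5}, Rl A f lab g M → Rl A f lab g N → M = N := fun h h' => Rl.unique A f lab hf hsp h h'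
  let ψ : H →* SL5 :=
    { toFun := fun g => (hex g g.2).choose
      map_one' := huniq (hex 1 H.one_mem).choose_spec (Rl.one A hA1 f lab)
      map_mul' := fun g h => huniq (hex _ (H.mul_mem g.2 h.2)).choose_spec
        ((hex g g.2).choose_spec.mul A hAm f lab (hex h h.2).choose_spec) }
  have hψ : ∀ (g : G) (hg : g ∈ H) (M : SL5), Rl A f lab g M → ψ ⟨g, hg⟩ = M := fun g hg M h => huniq (hex g hg).choose_spec h
  have hc1m : c1 ∈ H := Subgroup.subset_closure (Or.inl rfl)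
  have hc2m : c2 ∈ H := Subgroup.subset_closure (Or.inr rfl)
  have hr : Subgroup.closure ({M1, M2} : Set SL5) ≤ ψ.range := by
    rw [Subgroup.closure_le]
    rintro M (rfl | rfl)
    · exact ⟨⟨c1, hc1m⟩, hψ _ _ _ h1⟩
    · exact ⟨⟨c2, hc2m⟩, hψ _ _ _ h2⟩
  have hrc : 21504 ≤ Nat.card ψ.range := hM.trans (Subgroup.card_le_of_le hr)
  have hcr : Nat.card ψ.range ≤ Nat.card H := Nat.card_le_card_of_surjective _ ψ.rangeRestrict_surjective
  have hHle : Nat.card H ≤ Nat.card C := Subgroup.card_le_of_le hHC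
  have hHeq : H = C := Subgroup.eq_of_le_of_card_ge hHC (by omega)
  have hzH : z ∈ H := by
    rw [hHeq]
    exact Subgroup.mem_centralizer_singleton_iff.2 rfl
  have hinj : Function.Injective ψ := by
    have hsur := ψ.rangeRestrict_surjective
    have hb : Function.Bijective ψ.rangeRestrict :=
      (Nat.bijective_iff_surjective_and_card _).2 ⟨hsur, by omega⟩
    intro a b hab
    exact hb.1 (Subtype.ext hab)
  have hrs : ψ.range ≤ Subgroup.centralizer ({s} : Set SL5) := by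
    rintro _ ⟨g, rfl⟩
    rw [Subgroup.mem_centralizer_singleton_iff]
    have e : ψ ⟨z, hzH⟩ = s := hψ _ _ _ hz
    have hgz : (g : G) * z = z * g := Subgroup.mem_centralizer_singleton_iff.1 (hHC g.2)
    rw [← e, ← map_mul, ← map_mul]
    congr 1
    exact Subtype.ext hgz
  have hse : Nat.card (Subgroup.centralizer ({s} : Set SL5)) = 21504 := Cfsg.Agent.S0445.result s hs
  have hreq : ψ.range = Subgroup.centralizer ({s} : Set SL5) := Subgroup.eq_of_le_of_card_ge hrs (by omega)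
  have e1 : H ≃* ψ.range := MonoidHom.ofInjective hinj
  rw [← hreq]
  have e2 : C ≃* H := MulEquiv.subgroupCongr hHeq.symm
  exact ⟨e2.trans e1⟩

end

end Cfsg.Agent.H8.Lab
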