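import Cfsg.Agent.H8.LabIso

/-!
# Isomorphisms with the centraliser of a transvection of `SL(5,2)`: second version
-/

set_option autoImplicit false
set_option linter.all false

namespace Cfsg.Agent.H8.Lab

open Matrix

section

variable {G : Type*} [Group G] {X : Type*} (A : X → G → X) (hA1 : ∀ x, A x 1 = x)
  (hAm : ∀ x g h, A x (g * h) = A (A x g) h) {m : ℕ} (f : Fin m → X) (lab : Fin m → V5)

def RlM (g : G) (N : Matrix (Fin 5) (Fin 5) (ZMod 2)) : Prop := ∀ i, ∃ j, A (f i) g = f j ∧ lab j = (lab i) ᵥ* N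

include hA1 hAm in
theorem exists_SL (hf : Function.Injective f)
    (hsp : ∀ M N : Matrix (Fin 5) (Fin 5) (ZMod 2), (∀ i, (lab i) ᵥ* M = (lab i) ᵥ* N) → M = N)
    (H : Subgroup G) (h : ∀ g ∈ H, ∃ N, RlM A f lab g N) : ∀ g ∈ H, ∃ M : SL5, Rl A f lab g M := by
  intro g hg
  obtain ⟨N, hN⟩ := h g hg
  obtain ⟨N', hN'⟩ := h g⁻¹ (H.inv_mem hg)
  have e : N * N' = 1 := by
    apply hsp
    intro i
    obtain ⟨j, hj1, hj2⟩ := hN i
    obtain ⟨k, hk1, hk2⟩ := hN' j
    have : i = k := by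
      apply hf
      rw [← hk1, ← hj1, ← hAm, mul_inv_cancel, hA1]
    rw [← Matrix.vecMul_vecMul, ← hj2, ← hk2, ← this, Matrix.vecMul_one]
  have hd : N.det = 1 := by
    have h1 : N.det * N'.det = 1 := by rw [← Matrix.det_mul, e, Matrix.det_one]
    have key : ∀ a b : ZMod 2, a * b = 1 → a = 1 := by decide
    exact key _ _ h1
  exact ⟨⟨N, hd⟩, hN⟩

include hA1 hAm in
theorem iso_of_labels' [Finite G] (hf : Function.Injective f)
    (hsp : ∀ M N : Matrix (Fin 5) (Fin 5) (ZMod 2), (∀ i, (lab i) ᵥ* M = (lab i) ᵥ* N) → M = N)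
    (z c1 c2 : G) (M1 M2 s : SL5)
    (hs : (s : Matrix (Fin 5) (Fin 5) (ZMod 2)) = Matrix.transvection 0 1 1)
    (h1 : Rl A f lab c1 M1) (h2 : Rl A f lab c2 M2) (hz : Rl A f lab z s)
    (hc1 : c1 * z = z * c1) (hc2 : c2 * z = z * c2)
    (hex' : ∀ g ∈ Subgroup.centralizer ({z} : Set G), ∃ N, RlM A f lab g N)
    (hfaith : ∀ g ∈ Subgroup.centralizer ({z} : Set G), Rl A f lab g 1 → g = 1)
    (hM : 21504 ≤ Nat.card (Subgroup.closure ({M1, M2} : Set SL5))) :
    Nonempty (↥(Subgroup.centralizer ({z} : Set G)) ≃* ↥(Subgroup.centralizer ({s} : Set SL5))) := by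
  classical
  set C := Subgroup.centralizer ({z} : Set G) with hC
  have hex := exists_SL A hA1 hAm f lab hf hsp C hex'
  have huniq : ∀ {g : G} {M N : SL5}, Rl A f lab g M → Rl A f lab g N → M = N := fun h h' => Rl.unique A f lab hf hsp h h'
  let ψ : C →* SL5 :=
    { toFun := fun g => (hex g g.2).choose
      map_one' := huniq (hex 1 C.one_mem).choose_spec (Rl.one A hA1 f lab)
      map_mul' := fun g h => huniq (hex _ (C.mul_mem g.2 h.2)).choose_spec
        ((hex g g.2).choose_spec.mul A hAm f lab (hex h h.2).choose_spec) }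
  have hψ : ∀ (g : G) (hg : g ∈ C) (M : SL5), Rl A f lab g M → ψ ⟨g, hg⟩ = M := fun g hg M h => huniq (hex g hg).choose_spec h
  have hc1m : c1 ∈ C := Subgroup.mem_centralizer_singleton_iff.2 hc1
  have hc2m : c2 ∈ C := Subgroup.mem_centralizer_singleton_iff.2 hc2
  have hzm : z ∈ C := Subgroup.mem_centralizer_singleton_iff.2 rfl
  have hr : Subgroup.closure ({M1, M2} : Set SL5) ≤ ψ.range := by
    rw [Subgroup.closure_le]
    rintro M (rfl | rfl)
    · exact ⟨⟨c1, hc1m⟩, hψ _ _ _ h1⟩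
    · exact ⟨⟨c2, hc2m⟩, hψ _ _ _ h2⟩
  have hrc : 21504 ≤ Nat.card ψ.range := hM.trans (Subgroup.card_le_of_le hr)
  have hinj : Function.Injective ψ := by
    rw [injective_iff_map_eq_one]
    intro g hg
    apply Subtype.ext
    apply hfaith g g.2
    have := (hex g g.2).choose_spec
    have e : (hex g g.2).choose = 1 := hg
    rwa [e] at this
  have hrs : ψ.range ≤ Subgroup.centralizer ({s} : Set SL5) := by
    rintro _ ⟨g, rfl⟩
    rw [Subgroup.mem_centralizer_singleton_iff]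
    have e : ψ ⟨z, hzm⟩ = s := hψ _ _ _ hz
    have hgz : (g : G) * z = z * g := Subgroup.mem_centralizer_singleton_iff.1 g.2
    rw [← e, ← map_mul, ← map_mul]
    congr 1
    exact Subtype.ext hgz
  have hse : Nat.card (Subgroup.centralizer ({s} : Set SL5)) = 21504 := Cfsg.Agent.S0445.result s hs
  have hreq : ψ.range = Subgroup.centralizer ({s} : Set SL5) := Subgroup.eq_of_le_of_card_ge hrs (by omega)
  have e1 : C ≃* ψ.range := MonoidHom.ofInjective hinj
  rw [← hreq]
  exact ⟨e1⟩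

end

end Cfsg.Agent.H8.Lab
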