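import Cfsg.Agent.H8.SL5Low

/-!
# Labelled pairs of points: kernel-checkable conditions
-/

set_option autoImplicit false
set_option linter.all false

namespace Cfsg.Agent.H8.Lab

open Matrix

/-- one letter acts on the labelled pairs -/
noncomputable def ckLab (m : Nat) (P1 P2 LB N X RM : Nat → Nat) (i : Nat) : Bool :=
  force (N i) fun j => band (Nat.ble (Nat.succ j) m) (band (Nat.beq (P1 j) (X (P1 i)))
    (band (Nat.beq (P2 j) (X (P2 i))) (Nat.beq (LB j) (RM (LB i)))))

/-- bounds and increasing codes -/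
noncomputable def ckInc (n B : Nat) (P1 P2 LB : Nat → Nat) (i : Nat) : Bool :=
  band (Nat.ble (Nat.succ (P1 i)) n) (band (Nat.ble (Nat.succ (P2 i)) n) (band (Nat.ble (Nat.succ (LB i)) (nat_lit 32))
    (Nat.ble (Nat.succ (Nat.add (Nat.mul (P1 i) B) (P2 i))) (Nat.add (Nat.mul (P1 (Nat.succ i)) B) (P2 (Nat.succ i))))))

theorem ckInc_sound (n B : Nat) (P1 P2 LB : Nat → Nat) (i : Nat) (h : ckInc n B P1 P2 LB i = true) :
    P1 i < n ∧ P2 i < n ∧ LB i < 32 ∧ P1 i * B + P2 i < P1 (i + 1) * B + P2 (i + 1) := by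
  unfold ckInc at h
  rw [band_eq_true, band_eq_true, band_eq_true] at h
  exact ⟨Nat.le_of_ble_eq_true h.1, Nat.le_of_ble_eq_true h.2.1, Nat.le_of_ble_eq_true h.2.2.1, Nat.le_of_ble_eq_true h.2.2.2⟩

section

variable {G : Type*} [Group G] {n : ℕ} (ρ : G →* Equiv.Perm (Fin n))

/-- the right action on pairs -/
def act2 (x : Fin n × Fin n) (g : G) : Fin n × Fin n := (act ρ x.1 g, act ρ x.2 g)

theorem act2_one (x : Fin n × Fin n) : act2 ρ x 1 = x := by
  unfold act2; rw [act_one, act_one]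

theorem act2_mul (x : Fin n × Fin n) (g h : G) : act2 ρ x (g * h) = act2 ρ (act2 ρ x g) h := by
  unfold act2; rw [act_mul, act_mul]

variable (m B : ℕ) (P1 P2 LB : Nat → Nat) (hck : ∀ i < m, ckInc n B P1 P2 LB i = true)

/-- the labelled pairs -/
def fP (i : Fin m) : Fin n × Fin n :=
  (⟨P1 i, (ckInc_sound n B P1 P2 LB i (hck i i.2)).1⟩, ⟨P2 i, (ckInc_sound n B P1 P2 LB i (hck i i.2)).2.1⟩)

theorem fP_inj : Function.Injective (fP m B P1 P2 LB hck) := by
  have key : ∀ i j : ℕ, i < j → j < m → P1 i * B + P2 i < P1 j * B + P2 j := by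
    intro i j hij hj
    induction j with
    | zero => omega
    | succ j ih =>
      have h1 := (ckInc_sound n B P1 P2 LB j (hck j (by omega))).2.2.2
      rcases Nat.lt_or_ge i j with h | h
      · exact (ih h (by omega)).trans h1
      · have : i = j := by omega
        rw [this]; exact h1
  intro a b hab
  have h1 : P1 a = P1 b := congrArg (fun x : Fin n × Fin n => ((x.1 : Fin n) : ℕ)) hab
  have h2 : P2 a = P2 b := congrArg (fun x : Fin n × Fin n => ((x.2 : Fin n) : ℕ)) hab
  rcases Nat.lt_trichotomy a b with h | h | h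
  · have := key a b h b.2
    rw [h1, h2] at this; omega
  · exact Fin.ext h
  · have := key b a h a.2
    rw [h1, h2] at this; omega

theorem Rl_of_ck (s : Nat → G) {L : Nat} {T : Nat → Nat → Nat} {inv : Nat → Nat} (hT : TableOK n L T inv)
    (hρ : ∀ l < L, ρ (s l) = permL hT l) (l : Nat) (hl : l < L) (N RM : Nat → Nat) (M : SL5)
    (hRM : ∀ v < 32, labOf (RM v) = labOf v ᵥ* (M : Matrix (Fin 5) (Fin 5) (ZMod 2)))
    (h : ∀ i < m, ckLab m P1 P2 LB N (T l) RM i = true) :
    Rl (act2 ρ) (fP m B P1 P2 LB hck) (fun i : Fin m => labOf (LB i)) (s l) M := by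
  have hact : ∀ x : Fin n, ((act ρ x (s l) : Fin n) : ℕ) = T l x := by
    intro x
    have := act_word s hT ρ hρ x [l] (by simpa using hl)
    rw [List.map_singleton, List.prod_singleton] at this
    exact this
  intro i
  have h1 := h i i.2
  unfold ckLab at h1
  rw [force_eq, band_eq_true, band_eq_true, band_eq_true] at h1
  obtain ⟨h1, h2, h3, h4⟩ := h1
  refine ⟨⟨N i, Nat.le_of_ble_eq_true h1⟩, ?_, ?_⟩
  · apply Prod.ext
    · apply Fin.ext
      change ((act ρ _ (s l) : Fin n) : ℕ) = P1 (N i)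
      rw [hact]
      exact (Nat.eq_of_beq_eq_true h2).symm
    · apply Fin.ext
      change ((act ρ _ (s l) : Fin n) : ℕ) = P2 (N i)
      rw [hact]
      exact (Nat.eq_of_beq_eq_true h3).symm
  · change labOf (LB (N i)) = labOf (LB i) ᵥ* _
    rw [Nat.eq_of_beq_eq_true h4]
    exact hRM _ (ckInc_sound n B P1 P2 LB i (hck i i.2)).2.2.1

theorem span_of_labels (h : ∀ v ∈ ([1, 3, 5, 9, 17] : List ℕ), ∃ i < m, LB i = v) (M N : Matrix (Fin 5) (Fin 5) (ZMod 2))
    (hMN : ∀ i : Fin m, labOf (LB i) ᵥ* M = labOf (LB i) ᵥ* N) : M = N := by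
  have hv : ∀ v ∈ ([1, 3, 5, 9, 17] : List ℕ), labOf v ᵥ* M = labOf v ᵥ* N := by
    intro v hv
    obtain ⟨i, hi, rfl⟩ := h v hv
    exact hMN ⟨i, hi⟩
  have e0 : labOf 1 = Pi.single 0 1 := by decide +kernel
  have e1 : labOf 3 = Pi.single 0 1 + Pi.single 1 1 := by decide +kernel
  have e2 : labOf 5 = Pi.single 0 1 + Pi.single 2 1 := by decide +kernel
  have e3 : labOf 9 = Pi.single 0 1 + Pi.single 3 1 := by decide +kernel
  have e4 : labOf 17 = Pi.single 0 1 + Pi.single 4 1 := by decide +kernel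
  have r0 : (Pi.single 0 1 : V5) ᵥ* M = (Pi.single 0 1 : V5) ᵥ* N := by rw [← e0]; exact hv 1 (by decide)
  have r1 : (Pi.single 1 1 : V5) ᵥ* M = (Pi.single 1 1 : V5) ᵥ* N := by
    have := hv 3 (by decide)
    rw [e1, Matrix.add_vecMul, Matrix.add_vecMul, r0] at this
    exact add_left_cancel this
  have r2 : (Pi.single 2 1 : V5) ᵥ* M = (Pi.single 2 1 : V5) ᵥ* N := by
    have := hv 5 (by decide)
    rw [e2, Matrix.add_vecMul, Matrix.add_vecMul, r0] at this
    exact add_left_cancel this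
  have r3 : (Pi.single 3 1 : V5) ᵥ* M = (Pi.single 3 1 : V5) ᵥ* N := by
    have := hv 9 (by decide)
    rw [e3, Matrix.add_vecMul, Matrix.add_vecMul, r0] at this
    exact add_left_cancel this
  have r4 : (Pi.single 4 1 : V5) ᵥ* M = (Pi.single 4 1 : V5) ᵥ* N := by
    have := hv 17 (by decide)
    rw [e4, Matrix.add_vecMul, Matrix.add_vecMul, r0] at this
    exact add_left_cancel this
  rw [Matrix.single_one_vecMul, Matrix.single_one_vecMul] at r0 r1 r2 r3 r4
  ext i j
  fin_cases i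
  · exact congrFun r0 j
  · exact congrFun r1 j
  · exact congrFun r2 j
  · exact congrFun r3 j
  · exact congrFun r4 j

end

end Cfsg.Agent.H8.Lab
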