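import Cfsg.Agent.H8.LabIso

/-!
# Two matrices generating a group of order at least 21504
-/

set_option Elab.async false
set_option autoImplicit false
set_option linter.all false
set_option maxRecDepth 100000
set_option maxHeartbeats 1000000

namespace Cfsg.Agent.H8.Lab

open Matrix

noncomputable def LT0c0 : Nat := nat_lit 0xee3fa8d276bcab0dfb3c090666a1ea5b92c388a0
noncomputable def LT0 : Nat → Nat := (fun i => Nat.land (Nat.shiftRight LT0c0 (Nat.mul (nat_lit 5) (Nat.land i (nat_lit 31)))) (nat_lit 31))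
noncomputable def LT1c0 : Nat := nat_lit 0xecbf09f23ebe2bacdb74499643a0aa1b02e689e0
noncomputable def LT1 : Nat → Nat := (fun i => Nat.land (Nat.shiftRight LT1c0 (Nat.mul (nat_lit 5) (Nat.land i (nat_lit 31)))) (nat_lit 31))
noncomputable def LT2c0 : Nat := nat_lit 0x1a8282b0eedcb30ed3f6af2fe9ea38691e658920
noncomputable def LT2 : Nat → Nat := (fun i => Nat.land (Nat.shiftRight LT2c0 (Nat.mul (nat_lit 5) (Nat.land i (nat_lit 31)))) (nat_lit 31))
noncomputable def LT3c0 : Nat := nat_lit 0x8b26ebaaa86c1f25d9342e0fa1f83cc9366f8ba0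
noncomputable def LT3 : Nat → Nat := (fun i => Nat.land (Nat.shiftRight LT3c0 (Nat.mul (nat_lit 5) (Nat.land i (nat_lit 31)))) (nat_lit 31))

noncomputable def LT : Nat → Nat → Nat := fun l => (@Nat.rec (fun _ => Nat → Nat) LT0 (fun l _ => (@Nat.rec (fun _ => Nat → Nat) LT1 (fun l _ => (@Nat.rec (fun _ => Nat → Nat) LT2 (fun l _ => LT3) l)) l)) l)
def Linv : Nat → Nat := fun l => [1, 0, 3, 2].getD l 0

def M1 : SL5 := ⟨!![1, 0, 1, 0, 0; 0, 1, 0, 0, 0; 0, 0, 1, 1, 0; 0, 1, 0, 1, 0; 0, 0, 1, 1, 1], by decide +kernel⟩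
def M1i : SL5 := ⟨!![1, 1, 1, 1, 0; 0, 1, 0, 0, 0; 0, 1, 1, 1, 0; 0, 1, 0, 1, 0; 0, 0, 1, 0, 1], by decide +kernel⟩
def M2 : SL5 := ⟨!![1, 0, 0, 1, 0; 0, 1, 0, 0, 0; 0, 1, 1, 0, 0; 0, 0, 0, 1, 1; 0, 1, 1, 0, 1], by decide +kernel⟩
def M2i : SL5 := ⟨!![1, 0, 1, 1, 1; 0, 1, 0, 0, 0; 0, 1, 1, 0, 0; 0, 0, 1, 1, 1; 0, 0, 1, 0, 1], by decide +kernel⟩

theorem M1_mul : M1 * M1i = 1 := by apply Subtype.ext; decide +kernel
theorem M2_mul : M2 * M2i = 1 := by apply Subtype.ext; decide +kernel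

/-- the letters -/
def ls (l : Nat) : SL5 := if l = 0 then M1 else if l = 1 then M1i else if l = 2 then M2 else M2i

/-- the vector with a given code -/
def labOf (v : Nat) : V5 := fun j => ((v >>> (j : Nat)) % 2 : Nat)

/-- codes of vectors -/
def enc (v : V5) : Fin 32 := ⟨(v 0).val + 2 * (v 1).val + 4 * (v 2).val + 8 * (v 3).val + 16 * (v 4).val, by
  have h0 := ZMod.val_lt (v 0)
  have h1 := ZMod.val_lt (v 1)
  have h2 := ZMod.val_lt (v 2)
  have h3 := ZMod.val_lt (v 3)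
  have h4 := ZMod.val_lt (v 4)
  omega⟩

theorem enc_labOf : ∀ i : Fin 32, enc (labOf i) = i := by decide +kernel

theorem labOf_inj : Function.Injective (fun i : Fin 32 => labOf i) := fun a b h => by
  have h' := congrArg enc h
  simpa only [enc_labOf] using h'

theorem labOf_bij : Function.Bijective (fun i : Fin 32 => labOf i) := by
  refine (Nat.bijective_iff_injective_and_card _).2 ⟨labOf_inj, ?_⟩
  simp [V5]

theorem labOf_enc (v : V5) : labOf (enc v) = v := by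
  obtain ⟨i, rfl⟩ := labOf_bij.2 v
  exact congrArg (fun j : Fin 32 => labOf j) (enc_labOf i)

noncomputable def eqv : Fin 32 ≃ V5 := Equiv.ofBijective _ labOf_bij

theorem eqv_apply (i : Fin 32) : eqv i = labOf i := rfl

def rmul (g : SL5) : Equiv.Perm V5 where
  toFun v := v ᵥ* ((g⁻¹ : SL5) : Matrix (Fin 5) (Fin 5) (ZMod 2))
  invFun v := v ᵥ* (g : Matrix (Fin 5) (Fin 5) (ZMod 2))
  left_inv v := by
    change (v ᵥ* ((g⁻¹ : SL5) : Matrix (Fin 5) (Fin 5) (ZMod 2))) ᵥ* (g : Matrix (Fin 5) (Fin 5) (ZMod 2)) = v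
    rw [Matrix.vecMul_vecMul, ← Matrix.SpecialLinearGroup.coe_mul, inv_mul_cancel, Matrix.SpecialLinearGroup.coe_one, Matrix.vecMul_one]
  right_inv v := by
    change (v ᵥ* (g : Matrix (Fin 5) (Fin 5) (ZMod 2))) ᵥ* ((g⁻¹ : SL5) : Matrix (Fin 5) (Fin 5) (ZMod 2)) = v
    rw [Matrix.vecMul_vecMul, ← Matrix.SpecialLinearGroup.coe_mul, mul_inv_cancel, Matrix.SpecialLinearGroup.coe_one, Matrix.vecMul_one]

def rhoV : SL5 →* Equiv.Perm V5 where
  toFun := rmul
  map_one' := by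
    ext1 v
    change v ᵥ* ((1⁻¹ : SL5) : Matrix (Fin 5) (Fin 5) (ZMod 2)) = v
    rw [inv_one, Matrix.SpecialLinearGroup.coe_one, Matrix.vecMul_one]
  map_mul' g h := by
    ext1 v
    change v ᵥ* (((g * h)⁻¹ : SL5) : Matrix (Fin 5) (Fin 5) (ZMod 2)) = (v ᵥ* ((h⁻¹ : SL5) : Matrix (Fin 5) (Fin 5) (ZMod 2))) ᵥ* ((g⁻¹ : SL5) : Matrix (Fin 5) (Fin 5) (ZMod 2))
    rw [Matrix.vecMul_vecMul, _root_.mul_inv_rev, Matrix.SpecialLinearGroup.coe_mul]

noncomputable def rhoL : SL5 →* Equiv.Perm (Fin 32) := (eqv.symm.permCongrHom.toMonoidHom).comp rhoV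

theorem rhoL_apply (g : SL5) (i : Fin 32) : labOf (rhoL g i : Fin 32) = labOf i ᵥ* ((g⁻¹ : SL5) : Matrix (Fin 5) (Fin 5) (ZMod 2)) := by
  change labOf (eqv.symm (rmul g (eqv i)) : Fin 32) = _
  rw [← eqv_apply, Equiv.apply_symm_apply]
  rfl

theorem Ltok : TableOK 32 4 LT Linv where
  lt := by
    have h : ∀ l < 4, allR (ckPerm (nat_lit 32) (LT l) (LT (Linv l))) 0 32 = true := by decide +kernel
    intro l hl i hi
    exact (ckPerm_sound _ _ _ _ (allR_zero _ _ (h l hl) i hi)).1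
  inv_lt := by decide
  inv_inv := by decide
  inv_apply := by
    have h : ∀ l < 4, allR (ckPerm (nat_lit 32) (LT l) (LT (Linv l))) 0 32 = true := by decide +kernel
    intro l hl i hi
    exact (ckPerm_sound _ _ _ _ (allR_zero _ _ (h l hl) i hi)).2

theorem ls_inv : ∀ l < 4, (ls l)⁻¹ = ls (Linv l) := by
  have e1 : M1⁻¹ = M1i := inv_eq_of_mul_eq_one_right M1_mul
  have e2 : M2⁻¹ = M2i := inv_eq_of_mul_eq_one_right M2_mul
  intro l hl
  have : l = 0 ∨ l = 1 ∨ l = 2 ∨ l = 3 := by omega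
  rcases this with rfl | rfl | rfl | rfl
  · exact e1
  · change M1i⁻¹ = M1
    rw [← e1, inv_inv]
  · exact e2
  · change M2i⁻¹ = M2
    rw [← e2, inv_inv]

theorem ls_tab : ∀ l < 4, ∀ i < 32, labOf (LT l i) = labOf i ᵥ* (ls l : Matrix (Fin 5) (Fin 5) (ZMod 2)) := by
  decide +kernel

theorem hrhoL : ∀ l < 4, rhoL (ls l) = permL Ltok l := by
  intro l hl
  ext1 i
  apply labOf_inj
  change labOf (rhoL (ls l) i : Fin 32) = labOf (permL Ltok l i : Fin 32)
  rw [rhoL_apply, permL_apply Ltok l hl, ls_inv l hl]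
  exact (ls_tab _ (Ltok.inv_lt l hl) i i.2).symm

noncomputable def LQ0c0 : Nat := nat_lit 0x3500260030004200420033003100320025005300460035004400360055001000
noncomputable def LQ0 : Nat → Nat := (fun i => Nat.land (Nat.shiftRight LQ0c0 (Nat.mul (nat_lit 8) (Nat.land i (nat_lit 31)))) (nat_lit 255))
def LG0 : List (List Nat) := [[0, 2, 1, 3, 0, 2, 0, 0, 3, 0, 3, 3], [0, 3, 0, 2, 0, 0, 3, 0, 3, 3, 1, 3], [0, 3, 1, 2, 1, 2, 0, 2, 0, 3, 1, 2], [0, 0, 3], [0, 2, 0], [0], [2]]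
noncomputable def LQ1c0 : Nat := nat_lit 0x24004200520030004100420032003100630043003300540064001000000000
noncomputable def LQ1 : Nat → Nat := (fun i => Nat.land (Nat.shiftRight LQ1c0 (Nat.mul (nat_lit 8) (Nat.land i (nat_lit 31)))) (nat_lit 255))
def LG1 : List (List Nat) := [[0, 2, 1, 3, 0, 2, 0, 0, 3, 0, 3, 3], [0, 3, 0, 2, 0, 0, 3, 0, 3, 3, 1, 3], [0, 3, 1, 2, 1, 2, 0, 2, 0, 3, 1, 2], [0, 0, 3], [0, 2, 0]]
noncomputable def LQ2c0 : Nat := nat_lit 0x32003100410042005200300023004200530053004300100000000000000000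
noncomputable def LQ2 : Nat → Nat := (fun i => Nat.land (Nat.shiftRight LQ2c0 (Nat.mul (nat_lit 8) (Nat.land i (nat_lit 31)))) (nat_lit 255))
def LG2 : List (List Nat) := [[0, 2, 1, 3, 0, 2, 0, 0, 3, 0, 3, 3], [0, 3, 0, 2, 0, 0, 3, 0, 3, 3, 1, 3], [0, 3, 1, 2, 1, 2, 0, 2, 0, 3, 1, 2], [0, 0, 3]]
noncomputable def LQ3c0 : Nat := nat_lit 0x21002200320031002000420032001000000000000000000000000000000000
noncomputable def LQ3 : Nat → Nat := (fun i => Nat.land (Nat.shiftRight LQ3c0 (Nat.mul (nat_lit 8) (Nat.land i (nat_lit 31)))) (nat_lit 255))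
def LG3 : List (List Nat) := [[0, 2, 1, 3, 0, 2, 0, 0, 3, 0, 3, 3], [0, 3, 0, 2, 0, 0, 3, 0, 3, 3, 1, 3], [0, 3, 1, 2, 1, 2, 0, 2, 0, 3, 1, 2]]

theorem Lcount : 21504 ≤ Nat.card (wordGroup ls LG0) := by
  have k0 := card_step ls Ltok rhoL hrhoL LQ0 16 LG0 LG1 (by decide) ⟨1, by decide⟩ (by decide +kernel) (by decide +kernel)
    (by decide) (by decide +kernel) inferInstance
  have k1 := card_step ls Ltok rhoL hrhoL LQ1 14 LG1 LG2 (by decide) ⟨4, by decide⟩ (by decide +kernel) (by decide +kernel)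
    (by decide) (by decide +kernel) inferInstance
  have k2 := card_step ls Ltok rhoL hrhoL LQ2 12 LG2 LG3 (by decide) ⟨8, by decide⟩ (by decide +kernel) (by decide +kernel)
    (by decide) (by decide +kernel) inferInstance
  have k3 := card_step ls Ltok rhoL hrhoL LQ3 8 LG3 ([] : List (List Nat)) (by decide) ⟨16, by decide⟩ (by decide +kernel) (by decide +kernel)
    (by decide) (by decide +kernel) inferInstance
  have kl : 1 ≤ Nat.card (wordGroup ls ([] : List (List Nat))) := Nat.card_pos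
  have e : (21504 : ℕ) = 16 * (14 * (12 * (8 * 1))) := by norm_num
  rw [e]
  refine le_trans ?_ k0
  refine Nat.mul_le_mul_left _ (le_trans ?_ k1)
  refine Nat.mul_le_mul_left _ (le_trans ?_ k2)
  refine Nat.mul_le_mul_left _ (le_trans ?_ k3)
  exact Nat.mul_le_mul_left _ kl

theorem Lclosure : wordGroup ls LG0 ≤ Subgroup.closure ({M1, M2} : Set SL5) := by
  have h1 : M1 ∈ Subgroup.closure ({M1, M2} : Set SL5) := Subgroup.subset_closure (Or.inl rfl)
  have h2 : M2 ∈ Subgroup.closure ({M1, M2} : Set SL5) := Subgroup.subset_closure (Or.inr rfl)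
  have hl : ∀ l < 4, ls l ∈ Subgroup.closure ({M1, M2} : Set SL5) := by
    intro l hl
    have : l = 0 ∨ l = 1 ∨ l = 2 ∨ l = 3 := by omega
    rcases this with rfl | rfl | rfl | rfl
    · exact h1
    · have := Subgroup.inv_mem _ h1
      rwa [show M1⁻¹ = ls 1 from ls_inv 0 (by decide)] at this
    · exact h2
    · have := Subgroup.inv_mem _ h2
      rwa [show M2⁻¹ = ls 3 from ls_inv 2 (by decide)] at this
  unfold wordGroup
  rw [Subgroup.closure_le]
  rintro g ⟨w, hw, rfl⟩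
  apply Subgroup.list_prod_mem
  intro x hx
  obtain ⟨l, hl', rfl⟩ := List.mem_map.1 hx
  exact hl l ((show ∀ w ∈ LG0, ∀ l ∈ w, l < 4 by decide) w hw l hl')

theorem M_card : 21504 ≤ Nat.card (Subgroup.closure ({M1, M2} : Set SL5)) :=
  Lcount.trans (Subgroup.card_le_of_le Lclosure)

end Cfsg.Agent.H8.Lab
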