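import Cfsg.Agent.H7.GolaySimple
import Cfsg.Agent.H8.LabIso2
import Cfsg.Agent.H8.SL5Low

/-!
# An involution of `M₂₄` whose centraliser is that of a transvection of `SL(5,2)`
-/

set_option Elab.async false
set_option autoImplicit false
set_option linter.all false
set_option maxRecDepth 100000
set_option maxHeartbeats 1000000

namespace Cfsg.Agent.H8.M24L

open Matrix Cfsg.Agent.H7
open Cfsg.Agent.H8 Cfsg.Agent.H8.Lab
open scoped Pointwise

def oct : ℕ := 13062145
def W : List ℕ := [3715070, 10558, 36294, 525274, 1050548]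
def pts : List ℕ := [1, 2, 3, 4, 5, 6, 7, 8, 9, 10, 11, 13, 15, 19, 20, 21]
def cz : ℕ := 984474077397641743376427032193378496
def ca : ℕ := 28603877885450457737689532019870320
def cb : ℕ := 936220397720573078737227918917147104

/-- the codeword with given coordinates -/
def comb (m : ℕ) : ℕ := (((if m.testBit 0 then 3715070 else 0) ^^^ (if m.testBit 1 then 10558 else 0)) ^^^
  (if m.testBit 2 then 36294 else 0)) ^^^ ((if m.testBit 3 then 525274 else 0) ^^^ (if m.testBit 4 then 1050548 else 0))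

theorem chk_disj : ∀ a < 4096, Nat.land (Cfsg.Agent.H7.enc a) oct = 0 → ∃ m < 32, Cfsg.Agent.H7.enc a = comb m := by
  have h : (List.range 4096).all (fun a => !(Nat.beq (Nat.land (Cfsg.Agent.H7.enc a) oct) 0) || (List.range 32).any (fun m => Nat.beq (Cfsg.Agent.H7.enc a) (comb m))) = true := by
    decide +kernel
  rw [List.all_eq_true] at h
  intro a ha h0
  have h1 := h a (List.mem_range.2 ha)
  rw [h0] at h1
  have h2 : (List.range 32).any (fun m => Nat.beq (Cfsg.Agent.H7.enc a) (comb m)) = true := by simpa using h1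
  rw [List.any_eq_true] at h2
  obtain ⟨m, hm, h3⟩ := h2
  exact ⟨m, List.mem_range.1 hm, Nat.eq_of_beq_eq_true h3⟩

/-- the label of a point -/
def labN (i : ℕ) (k : Fin 5) : ZMod 2 := if (W.getD k 0).testBit i then 1 else 0

def lab (i : Fin 16) : V5 := labN (pts.getD i 0)

noncomputable def f (i : Fin 16) : GolayPt := gpt (pts.getD i 0)

theorem pts_lt : ∀ i : Fin 16, pts.getD i 0 < 24 := by decide

theorem gidx_f (i : Fin 16) : gidx (f i) = pts.getD i 0 := gidx_gpt (pts_lt i)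

theorem f_inj : Function.Injective f := by
  intro a b h
  have h1 : pts.getD a 0 = pts.getD b 0 := by rw [← gidx_f, h, gidx_f]
  have key : ∀ a b : Fin 16, pts.getD a 0 = pts.getD b 0 → a = b := by decide +kernel
  exact key a b h1

theorem f_surj (p : GolayPt) (hp : p ∉ toSet oct) : ∃ j, p = f j := by
  have key : ∀ i < 24, oct.testBit i = false → ∃ j : Fin 16, i = pts.getD j 0 := by decide +kernel
  rw [mem_toSet, Bool.not_eq_true] at hp
  obtain ⟨j, hj⟩ := key _ (gidx_lt p) hp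
  exact ⟨j, gidx_injective (by rw [hj, gidx_f])⟩

theorem f_not_mem (i : Fin 16) : f i ∉ toSet oct := by
  rw [mem_toSet, gidx_f]
  have key : ∀ i : Fin 16, ¬ oct.testBit (pts.getD i 0) = true := by decide +kernel
  exact key i

theorem lab_inj : ∀ i j : Fin 16, lab i = lab j → i = j := by decide +kernel

theorem comb_lab : ∀ m < 32, ∀ i : Fin 16, (if (comb m).testBit (pts.getD i 0) then (1 : ZMod 2) else 0) =
    ∑ k : Fin 5, lab i k * (if m.testBit k then 1 else 0) := by decide +kernel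

/-- the right action -/
def A (p : GolayPt) (g : ↥Cfsg.M24) : GolayPt := (g : Equiv.Perm GolayPt)⁻¹ p

theorem A_one (p : GolayPt) : A p 1 = p := by simp [A]

theorem A_mul (p : GolayPt) (g h : ↥Cfsg.M24) : A p (g * h) = A (A p g) h := by
  simp [A, _root_.mul_inv_rev]

theorem okz : okPerm cz = true := by decide +kernel
theorem oka : okPerm ca = true := by decide +kernel
theorem okb : okPerm cb = true := by decide +kernel

noncomputable def z : ↥Cfsg.M24 := ⟨mkPerm cz, mkPerm_mem_M24 okz⟩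
noncomputable def a : ↥Cfsg.M24 := ⟨mkPerm ca, mkPerm_mem_M24 oka⟩
noncomputable def b : ↥Cfsg.M24 := ⟨mkPerm cb, mkPerm_mem_M24 okb⟩

theorem Rl_of (c : ℕ) (hc : okPerm c = true) (M : SL5)
    (h : ∀ i : Fin 16, ∃ j : Fin 16, papp c (pts.getD j 0) = pts.getD i 0 ∧ lab j = lab i ᵥ* (M : Matrix (Fin 5) (Fin 5) (ZMod 2))) :
    Rl A f lab ⟨mkPerm c, mkPerm_mem_M24 hc⟩ M := by
  intro i
  obtain ⟨j, h1, h2⟩ := h i
  refine ⟨j, ?_, h2⟩
  unfold A f
  change (mkPerm c)⁻¹ (gpt (pts.getD i 0)) = gpt (pts.getD j 0)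
  rw [Equiv.Perm.inv_eq_iff_eq, mkPerm_gpt (okPerm_isPerm hc) (pts_lt j), h1]

theorem mul_of (c : ℕ) (hc : okPerm c = true) (d : ℕ) (hd : okPerm d = true)
    (h : ∀ i < 24, papp c (papp d i) = papp d (papp c i)) :
    (⟨mkPerm c, mkPerm_mem_M24 hc⟩ : ↥Cfsg.M24) * ⟨mkPerm d, mkPerm_mem_M24 hd⟩ =
      ⟨mkPerm d, mkPerm_mem_M24 hd⟩ * ⟨mkPerm c, mkPerm_mem_M24 hc⟩ := by
  apply Subtype.ext
  apply Equiv.ext
  intro p
  change mkPerm c (mkPerm d p) = mkPerm d (mkPerm c p)
  rw [mkPerm_apply (okPerm_isPerm hd), mkPerm_apply (okPerm_isPerm hc) p,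
    mkPerm_gpt (okPerm_isPerm hc) (papp_lt (okPerm_isPerm hd) (gidx_lt p)),
    mkPerm_gpt (okPerm_isPerm hd) (papp_lt (okPerm_isPerm hc) (gidx_lt p)), h _ (gidx_lt p)]

theorem ord_z : orderOf z = 2 := by
  apply orderOf_eq_prime
  · apply Subtype.ext
    apply Equiv.ext
    intro p
    rw [pow_two]
    change mkPerm cz (mkPerm cz p) = p
    have key : ∀ i < 24, papp cz (papp cz i) = i := by decide +kernel
    rw [mkPerm_apply (okPerm_isPerm okz) p,
      mkPerm_gpt (okPerm_isPerm okz) (papp_lt (okPerm_isPerm okz) (gidx_lt p)), key _ (gidx_lt p), gpt_gidx]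
  · intro h
    have h1 : mkPerm cz (gpt 1) = gpt 1 := by
      have : (z : Equiv.Perm GolayPt) = 1 := by rw [h]; rfl
      change (z : Equiv.Perm GolayPt) (gpt 1) = gpt 1
      rw [this]; rfl
    rw [mkPerm_gpt (okPerm_isPerm okz) (by norm_num)] at h1
    have h2 : gidx (gpt (papp cz 1)) = gidx (gpt 1) := by rw [h1]
    rw [gidx_gpt (papp_lt (okPerm_isPerm okz) (by norm_num)), gidx_gpt (by norm_num)] at h2
    exact absurd h2 (by decide +kernel)

theorem fix_z (p : GolayPt) : (z : Equiv.Perm GolayPt) p = p ↔ p ∈ toSet oct := by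
  have key : ∀ i < 24, (papp cz i = i ↔ oct.testBit i = true) := by decide +kernel
  rw [mem_toSet, ← key _ (gidx_lt p)]
  change mkPerm cz p = p ↔ _
  rw [mkPerm_apply (okPerm_isPerm okz) p]
  constructor
  · intro h
    have h2 : gidx (gpt (papp cz (gidx p))) = gidx p := by rw [h]
    rwa [gidx_gpt (papp_lt (okPerm_isPerm okz) (gidx_lt p))] at h2
  · intro h
    rw [h, gpt_gidx]

theorem cent_apply (g : ↥Cfsg.M24) (hg : g ∈ Subgroup.centralizer ({z} : Set ↥Cfsg.M24)) (p : GolayPt) :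
    A p g ∈ toSet oct ↔ p ∈ toSet oct := by
  have h1 : g * z = z * g := Subgroup.mem_centralizer_singleton_iff.1 hg
  have h2 : ∀ q : GolayPt, (g : Equiv.Perm GolayPt) ((z : Equiv.Perm GolayPt) q) = (z : Equiv.Perm GolayPt) ((g : Equiv.Perm GolayPt) q) := by
    intro q
    have := congrArg (fun x : ↥Cfsg.M24 => (x : Equiv.Perm GolayPt) q) h1
    exact this
  rw [← fix_z, ← fix_z]
  have h3 := h2 (A p g)
  have h4 : (g : Equiv.Perm GolayPt) (A p g) = p := Equiv.apply_symm_apply (g : Equiv.Perm GolayPt) p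
  constructor
  · intro h
    rw [h, h4] at h3
    exact h3.symm
  · intro h
    rw [h4, h] at h3
    rw [← h4] at h3
    have h5 := (g : Equiv.Perm GolayPt).injective h3
    rw [h4] at h5
    exact h5

theorem word_image (g : ↥Cfsg.M24) (hg : g ∈ Subgroup.centralizer ({z} : Set ↥Cfsg.M24)) (k : Fin 5) :
    ∃ m < 32, ∀ p : GolayPt, A p g ∈ toSet (W.getD k 0) ↔ p ∈ toSet (comb m) := by
  have hcw : ∀ k : Fin 5, isCW (W.getD k 0) = true := by decide +kernel
  have hm : toSet (W.getD k 0) ∈ GC := mem_GC_mask.2 ⟨_, hcw k, rfl⟩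
  have hm2 := M24_smul_mem g.2 hm
  obtain ⟨a, ha, h1⟩ := mem_GC_iff.1 hm2
  have hin : ∀ p : GolayPt, A p g ∈ toSet (W.getD k 0) ↔ p ∈ toSet (Cfsg.Agent.H7.enc a) := by
    intro p
    rw [h1, ← Finset.inv_smul_mem_iff]
    rfl
  have hdis : ∀ k : Fin 5, ∀ i < 24, (W.getD k 0).testBit i = true → oct.testBit i = true → False := by decide +kernel
  have h2 : Nat.land (Cfsg.Agent.H7.enc a) oct = 0 := by
    change (Cfsg.Agent.H7.enc a) &&& oct = 0
    apply Nat.eq_of_testBit_eq
    intro i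
    rw [Nat.testBit_and, Nat.zero_testBit]
    by_contra hne
    rw [Bool.not_eq_false, Bool.and_eq_true] at hne
    have hi : i < 24 := by
      by_contra h
      push Not at h
      have := Nat.ge_two_pow_of_testBit hne.2
      have h2 : 2 ^ 24 ≤ 2 ^ i := Nat.pow_le_pow_right (by norm_num) h
      have h3 : oct < 2 ^ 24 := by decide
      omega
    have p1 : gpt i ∈ toSet (Cfsg.Agent.H7.enc a) := (gpt_mem_toSet hi).2 hne.1
    have p2 : gpt i ∈ toSet oct := (gpt_mem_toSet hi).2 hne.2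
    have p3 := (hin _).2 p1
    have p4 := (cent_apply g hg _).2 p2
    rw [mem_toSet] at p3 p4
    exact hdis k _ (gidx_lt _) p3 p4
  obtain ⟨m, hm, h3⟩ := chk_disj a ha h2
  exact ⟨m, hm, fun p => by rw [hin, h3]⟩

theorem hex (g : ↥Cfsg.M24) (hg : g ∈ Subgroup.centralizer ({z} : Set ↥Cfsg.M24)) : ∃ N, RlM A f lab g N := by
  choose m hm hm2 using word_image g hg
  refine ⟨fun l k => if (m k).testBit l then 1 else 0, ?_⟩
  intro i
  have h1 : A (f i) g ∉ toSet oct := by
    rw [cent_apply g hg]; exact f_not_mem i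
  obtain ⟨j, hj⟩ := f_surj _ h1
  refine ⟨j, hj, ?_⟩
  funext k
  have e1 : lab j k = if (comb (m k)).testBit (pts.getD i 0) then (1 : ZMod 2) else 0 := by
    change (if (W.getD k 0).testBit (pts.getD j 0) then (1 : ZMod 2) else 0) = _
    have h2 := hm2 k (f i)
    rw [hj, mem_toSet, gidx_f, mem_toSet, gidx_f] at h2
    by_cases h3 : (W.getD k 0).testBit (pts.getD j 0) = true
    · rw [if_pos h3, if_pos (h2.1 h3)]
    · rw [if_neg h3, if_neg (fun h => h3 (h2.2 h))]
  rw [e1, comb_lab (m k) (hm k) i]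
  rfl

theorem hfaith (g : ↥Cfsg.M24) (hg : Rl A f lab g 1) : g = 1 := by
  have h1 : ∀ i, (g : Equiv.Perm GolayPt) (f i) = f i := by
    intro i
    obtain ⟨j, hj1, hj2⟩ := hg i
    have e : ((1 : SL5) : Matrix (Fin 5) (Fin 5) (ZMod 2)) = 1 := rfl
    rw [e, Matrix.vecMul_one] at hj2
    rw [lab_inj j i hj2] at hj1
    exact (Equiv.Perm.inv_eq_iff_eq.1 hj1).symm
  apply Subtype.ext
  apply M24_fix9 g.2
  have h2 : (Finset.univ.image f) ⊆ (Finset.univ.filter fun p => (g : Equiv.Perm GolayPt) p = p) := by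
    intro p hp
    obtain ⟨i, _, rfl⟩ := Finset.mem_image.1 hp
    exact Finset.mem_filter.2 ⟨Finset.mem_univ _, h1 i⟩
  have h3 := Finset.card_le_card h2
  rw [Finset.card_image_of_injective _ f_inj, Finset.card_univ, Fintype.card_fin] at h3
  omega

theorem hsp (M N : Matrix (Fin 5) (Fin 5) (ZMod 2)) (hMN : ∀ i : Fin 16, lab i ᵥ* M = lab i ᵥ* N) : M = N := by
  have key : ∀ v : V5, v 0 = 1 → ∃ i : Fin 16, lab i = v := by decide +kernel
  have hv : ∀ v : V5, v 0 = 1 → v ᵥ* M = v ᵥ* N := by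
    intro v hv
    obtain ⟨i, rfl⟩ := key v hv
    exact hMN i
  have r0 : (Pi.single 0 1 : V5) ᵥ* M = (Pi.single 0 1 : V5) ᵥ* N := hv _ (by decide +kernel)
  have rj : ∀ j : Fin 5, (Pi.single j 1 : V5) ᵥ* M = (Pi.single j 1 : V5) ᵥ* N := by
    intro j
    by_cases hj : j = 0
    · rw [hj]; exact r0
    · have := hv (Pi.single 0 1 + Pi.single j 1) (by
        rw [Pi.add_apply, Pi.single_eq_same, Pi.single_eq_of_ne (Ne.symm hj), add_zero])
      rw [Matrix.add_vecMul, Matrix.add_vecMul, r0] at this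
      exact add_left_cancel this
  ext i j
  have := congrFun (rj i) j
  rwa [Matrix.single_one_vecMul, Matrix.single_one_vecMul] at this

theorem iso (t : SL5) (ht : (t : Matrix (Fin 5) (Fin 5) (ZMod 2)) = Matrix.transvection 0 1 1) :
    Nonempty (↥(Subgroup.centralizer ({z} : Set ↥Cfsg.M24)) ≃* ↥(Subgroup.centralizer ({t} : Set SL5))) :=
  iso_of_labels' A A_one A_mul f lab f_inj hsp z a b M1 M2 t ht
    (Rl_of ca oka M1 (by decide +kernel)) (Rl_of cb okb M2 (by decide +kernel)) (Rl_of cz okz t (by rw [ht]; decide +kernel))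
    (mul_of ca oka cz okz (by decide +kernel)) (mul_of cb okb cz okz (by decide +kernel)) hex (fun g _ => hfaith g) M_card

end Cfsg.Agent.H8.M24L
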