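import Cfsg.Agent.H8.T.G24M
import Cfsg.Agent.H8.SuzMain
import Cfsg.Agent.S1059

/-!
# The subgroup `G₂(4)` of the presented sporadic Suzuki group
-/

set_option autoImplicit false
set_option linter.all false
set_option maxRecDepth 100000
set_option maxHeartbeats 400000

namespace Cfsg.Agent.H8.G24M

open Cfsg

noncomputable abbrev CG : Subgroup (GL Lie.chevG2.Idx F4) := Lie.chevG2.group F4

noncomputable abbrev mM (mt : Nat → Nat) : Matrix Lie.chevG2.Idx Lie.chevG2.Idx F4 := matT eG mt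

theorem sq_of (mt : Nat → Nat) (hl : ckLin mt 14 = true)
    (h : allR (fun j => Nat.beq (actP 14 [mt] (bas j) 2) (bas j)) 0 14 = true) : mM mt * mM mt = 1 := by
  have h1 := pow_eq_one_of_actP eG bas14 [mt] (by simpa using hl) 2 h
  simpa [pow_two] using h1

/-- root elements. -/
theorem root_mem (mt : Nat → Nat) (hl : ckLin mt 14 = true)
    (h : allR (fun j => Nat.beq (actP 14 [mt] (bas j) 2) (bas j)) 0 14 = true) (r : Fin 12) (t : F4)
    (hx : ∀ i j : Fin 2 ⊕ Fin 12, F4.beq' (Lie.chevG2.xMat F4 r t i j) (comp (mt (4 * (eG j : Nat) + 1)) (eG i)) = true) :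
    ∃ g ∈ CG, (g : Matrix Lie.chevG2.Idx Lie.chevG2.Idx F4) = mM mt := by
  refine ⟨⟨mM mt, mM mt, sq_of mt hl h, sq_of mt hl h⟩, ?_, rfl⟩
  apply Subgroup.subset_closure
  exact ⟨r, t, matT_eq eG mt _ hx⟩

theorem exists_prod (ms : List (Nat → Nat))
    (h : ∀ m ∈ ms, ∃ g ∈ CG, (g : Matrix Lie.chevG2.Idx Lie.chevG2.Idx F4) = mM m) :
    ∃ g ∈ CG, (g : Matrix Lie.chevG2.Idx Lie.chevG2.Idx F4) = (ms.map mM).prod := by
  induction ms with
  | nil => exact ⟨1, one_mem _, rfl⟩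
  | cons m ms ih =>
    obtain ⟨g, hg, h1⟩ := h m List.mem_cons_self
    obtain ⟨g', hg', h2⟩ := ih (fun m' hm' => h m' (List.mem_cons_of_mem _ hm'))
    refine ⟨g * g', mul_mem hg hg', ?_⟩
    rw [List.map_cons, List.prod_cons, ← h1, ← h2]
    rfl

theorem mR0 : ∃ g ∈ CG, (g : Matrix Lie.chevG2.Idx Lie.chevG2.Idx F4) = mM R0 :=
  root_mem R0 linR0 sqR0 (0 : Fin 12) F4.o xm0
theorem mR1 : ∃ g ∈ CG, (g : Matrix Lie.chevG2.Idx Lie.chevG2.Idx F4) = mM R1 :=
  root_mem R1 linR1 sqR1 (0 : Fin 12) F4.w xm1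
theorem mR3 : ∃ g ∈ CG, (g : Matrix Lie.chevG2.Idx Lie.chevG2.Idx F4) = mM R3 :=
  root_mem R3 linR3 sqR3 (1 : Fin 12) F4.o xm3
theorem mR5 : ∃ g ∈ CG, (g : Matrix Lie.chevG2.Idx Lie.chevG2.Idx F4) = mM R5 :=
  root_mem R5 linR5 sqR5 (1 : Fin 12) F4.v xm5
theorem mR6 : ∃ g ∈ CG, (g : Matrix Lie.chevG2.Idx Lie.chevG2.Idx F4) = mM R6 :=
  root_mem R6 linR6 sqR6 (2 : Fin 12) F4.o xm6
theorem mR7 : ∃ g ∈ CG, (g : Matrix Lie.chevG2.Idx Lie.chevG2.Idx F4) = mM R7 :=
  root_mem R7 linR7 sqR7 (2 : Fin 12) F4.w xm7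
theorem mR8 : ∃ g ∈ CG, (g : Matrix Lie.chevG2.Idx Lie.chevG2.Idx F4) = mM R8 :=
  root_mem R8 linR8 sqR8 (2 : Fin 12) F4.v xm8
theorem mR9 : ∃ g ∈ CG, (g : Matrix Lie.chevG2.Idx Lie.chevG2.Idx F4) = mM R9 :=
  root_mem R9 linR9 sqR9 (3 : Fin 12) F4.o xm9
theorem mR11 : ∃ g ∈ CG, (g : Matrix Lie.chevG2.Idx Lie.chevG2.Idx F4) = mM R11 :=
  root_mem R11 linR11 sqR11 (3 : Fin 12) F4.v xm11
theorem mR17 : ∃ g ∈ CG, (g : Matrix Lie.chevG2.Idx Lie.chevG2.Idx F4) = mM R17 :=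
  root_mem R17 linR17 sqR17 (5 : Fin 12) F4.v xm17
theorem mR18 : ∃ g ∈ CG, (g : Matrix Lie.chevG2.Idx Lie.chevG2.Idx F4) = mM R18 :=
  root_mem R18 linR18 sqR18 (6 : Fin 12) F4.o xm18
theorem mR19 : ∃ g ∈ CG, (g : Matrix Lie.chevG2.Idx Lie.chevG2.Idx F4) = mM R19 :=
  root_mem R19 linR19 sqR19 (6 : Fin 12) F4.w xm19
theorem mR20 : ∃ g ∈ CG, (g : Matrix Lie.chevG2.Idx Lie.chevG2.Idx F4) = mM R20 :=
  root_mem R20 linR20 sqR20 (6 : Fin 12) F4.v xm20
theorem mR22 : ∃ g ∈ CG, (g : Matrix Lie.chevG2.Idx Lie.chevG2.Idx F4) = mM R22 :=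
  root_mem R22 linR22 sqR22 (7 : Fin 12) F4.w xm22
theorem mR23 : ∃ g ∈ CG, (g : Matrix Lie.chevG2.Idx Lie.chevG2.Idx F4) = mM R23 :=
  root_mem R23 linR23 sqR23 (7 : Fin 12) F4.v xm23
theorem mR28 : ∃ g ∈ CG, (g : Matrix Lie.chevG2.Idx Lie.chevG2.Idx F4) = mM R28 :=
  root_mem R28 linR28 sqR28 (9 : Fin 12) F4.w xm28
theorem mR29 : ∃ g ∈ CG, (g : Matrix Lie.chevG2.Idx Lie.chevG2.Idx F4) = mM R29 :=
  root_mem R29 linR29 sqR29 (9 : Fin 12) F4.v xm29
theorem mR32 : ∃ g ∈ CG, (g : Matrix Lie.chevG2.Idx Lie.chevG2.Idx F4) = mM R32 :=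
  root_mem R32 linR32 sqR32 (10 : Fin 12) F4.v xm32
theorem mR33 : ∃ g ∈ CG, (g : Matrix Lie.chevG2.Idx Lie.chevG2.Idx F4) = mM R33 :=
  root_mem R33 linR33 sqR33 (11 : Fin 12) F4.o xm33
theorem mR34 : ∃ g ∈ CG, (g : Matrix Lie.chevG2.Idx Lie.chevG2.Idx F4) = mM R34 :=
  root_mem R34 linR34 sqR34 (11 : Fin 12) F4.w xm34
theorem mR35 : ∃ g ∈ CG, (g : Matrix Lie.chevG2.Idx Lie.chevG2.Idx F4) = mM R35 :=
  root_mem R35 linR35 sqR35 (11 : Fin 12) F4.v xm35

theorem mk_of (ms : List (Nat → Nat)) (hl : ∀ m ∈ ms, ckLin m 14 = true)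
    (h : ∀ m ∈ ms, ∃ g ∈ CG, (g : Matrix Lie.chevG2.Idx Lie.chevG2.Idx F4) = mM m) (mt : Nat → Nat)
    (hw : allR (fun j => Nat.beq (actW 14 ms (bas j)) (mt (Nat.add (Nat.mul 4 j) 1))) 0 14 = true) :
    ∃ g ∈ CG, (g : Matrix Lie.chevG2.Idx Lie.chevG2.Idx F4) = mM mt := by
  obtain ⟨g, hg, h1⟩ := exists_prod ms h
  exact ⟨g, hg, h1.trans (word_eq_table eG bas14 ms hl mt hw)⟩

theorem mA0 : ∃ g ∈ CG, (g : Matrix Lie.chevG2.Idx Lie.chevG2.Idx F4) = mM A0 := by
  refine mk_of [R6, R17, R35, R20, R17, R6] ?_ ?_ A0 wA0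
  · intro m hm
    simp only [List.mem_cons, List.not_mem_nil, or_false] at hm
    rcases hm with rfl | rfl | rfl | rfl | rfl | rfl
    · exact linR6
    · exact linR17
    · exact linR35
    · exact linR20
    · exact linR17
    · exact linR6
  · intro m hm
    simp only [List.mem_cons, List.not_mem_nil, or_false] at hm
    rcases hm with rfl | rfl | rfl | rfl | rfl | rfl
    · exact mR6
    · exact mR17
    · exact mR35
    · exact mR20
    · exact mR17
    · exact mR6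
theorem mA1 : ∃ g ∈ CG, (g : Matrix Lie.chevG2.Idx Lie.chevG2.Idx F4) = mM A1 := by
  refine mk_of [R1, R8, R29, R35, R7, R23, R6] ?_ ?_ A1 wA1
  · intro m hm
    simp only [List.mem_cons, List.not_mem_nil, or_false] at hm
    rcases hm with rfl | rfl | rfl | rfl | rfl | rfl | rfl
    · exact linR1
    · exact linR8
    · exact linR29
    · exact linR35
    · exact linR7
    · exact linR23
    · exact linR6
  · intro m hm
    simp only [List.mem_cons, List.not_mem_nil, or_false] at hm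
    rcases hm with rfl | rfl | rfl | rfl | rfl | rfl | rfl
    · exact mR1
    · exact mR8
    · exact mR29
    · exact mR35
    · exact mR7
    · exact mR23
    · exact mR6
theorem mA2 : ∃ g ∈ CG, (g : Matrix Lie.chevG2.Idx Lie.chevG2.Idx F4) = mM A2 := by
  refine mk_of [R0, R9, R34, R32, R9, R0] ?_ ?_ A2 wA2
  · intro m hm
    simp only [List.mem_cons, List.not_mem_nil, or_false] at hm
    rcases hm with rfl | rfl | rfl | rfl | rfl | rfl
    · exact linR0
    · exact linR9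
    · exact linR34
    · exact linR32
    · exact linR9
    · exact linR0
  · intro m hm
    simp only [List.mem_cons, List.not_mem_nil, or_false] at hm
    rcases hm with rfl | rfl | rfl | rfl | rfl | rfl
    · exact mR0
    · exact mR9
    · exact mR34
    · exact mR32
    · exact mR9
    · exact mR0
theorem mA3 : ∃ g ∈ CG, (g : Matrix Lie.chevG2.Idx Lie.chevG2.Idx F4) = mM A3 := by
  refine mk_of [R9, R22, R18, R5, R32, R28] ?_ ?_ A3 wA3
  · intro m hm
    simp only [List.mem_cons, List.not_mem_nil, or_false] at hm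
    rcases hm with rfl | rfl | rfl | rfl | rfl | rfl
    · exact linR9
    · exact linR22
    · exact linR18
    · exact linR5
    · exact linR32
    · exact linR28
  · intro m hm
    simp only [List.mem_cons, List.not_mem_nil, or_false] at hm
    rcases hm with rfl | rfl | rfl | rfl | rfl | rfl
    · exact mR9
    · exact mR22
    · exact mR18
    · exact mR5
    · exact mR32
    · exact mR28
theorem mA4 : ∃ g ∈ CG, (g : Matrix Lie.chevG2.Idx Lie.chevG2.Idx F4) = mM A4 := by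
  refine mk_of [R0, R3, R6, R11, R35, R7, R11, R19] ?_ ?_ A4 wA4
  · intro m hm
    simp only [List.mem_cons, List.not_mem_nil, or_false] at hm
    rcases hm with rfl | rfl | rfl | rfl | rfl | rfl | rfl | rfl
    · exact linR0
    · exact linR3
    · exact linR6
    · exact linR11
    · exact linR35
    · exact linR7
    · exact linR11
    · exact linR19
  · intro m hm
    simp only [List.mem_cons, List.not_mem_nil, or_false] at hm
    rcases hm with rfl | rfl | rfl | rfl | rfl | rfl | rfl | rfl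
    · exact mR0
    · exact mR3
    · exact mR6
    · exact mR11
    · exact mR35
    · exact mR7
    · exact mR11
    · exact mR19
theorem mA5 : ∃ g ∈ CG, (g : Matrix Lie.chevG2.Idx Lie.chevG2.Idx F4) = mM A5 := by
  refine mk_of [R6, R17, R33, R18, R17, R6] ?_ ?_ A5 wA5
  · intro m hm
    simp only [List.mem_cons, List.not_mem_nil, or_false] at hm
    rcases hm with rfl | rfl | rfl | rfl | rfl | rfl
    · exact linR6
    · exact linR17
    · exact linR33
    · exact linR18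
    · exact linR17
    · exact linR6
  · intro m hm
    simp only [List.mem_cons, List.not_mem_nil, or_false] at hm
    rcases hm with rfl | rfl | rfl | rfl | rfl | rfl
    · exact mR6
    · exact mR17
    · exact mR33
    · exact mR18
    · exact mR17
    · exact mR6

noncomputable def AL : List (Nat → Nat) := [A0, A1, A2, A3, A4, A5]

/-- table of a letter. -/
noncomputable def AF (l : Nat) : Nat → Nat := getL A0 AL l

theorem mAF (l : Nat) (hl : l < 6) : ∃ g ∈ CG, (g : Matrix Lie.chevG2.Idx Lie.chevG2.Idx F4) = mM (AF l) := by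
  interval_cases l
  · exact mA0
  · exact mA1
  · exact mA2
  · exact mA3
  · exact mA4
  · exact mA5

theorem linAF (l : Nat) (hl : l < 6) : ckLin (AF l) 14 = true := by
  interval_cases l
  · exact linA0
  · exact linA1
  · exact linA2
  · exact linA3
  · exact linA4
  · exact linA5

theorem sqAF (l : Nat) (hl : l < 6) : mM (AF l) * mM (AF l) = 1 := by
  interval_cases l
  · exact sq_of A0 linA0 sqA0
  · exact sq_of A1 linA1 sqA1
  · exact sq_of A2 linA2 sqA2
  · exact sq_of A3 linA3 sqA3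
  · exact sq_of A4 linA4 sqA4
  · exact sq_of A5 linA5 sqA5

/-- the involutions. -/
noncomputable def tt (l : Nat) : CG := if hl : l < 6 then ⟨(mAF l hl).choose, (mAF l hl).choose_spec.1⟩ else 1

theorem tt_coe (l : Nat) (hl : l < 6) :
    (((tt l : CG) : GL Lie.chevG2.Idx F4) : Matrix Lie.chevG2.Idx Lie.chevG2.Idx F4) = mM (AF l) := by
  unfold tt
  rw [dif_pos hl]
  exact (mAF l hl).choose_spec.2

theorem tt_ge (l : Nat) (hl : 6 ≤ l) : tt l = 1 := by
  unfold tt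
  rw [dif_neg (by omega)]

theorem cg_ext (x : CG) (h : ((x : GL Lie.chevG2.Idx F4) : Matrix Lie.chevG2.Idx Lie.chevG2.Idx F4) = 1) : x = 1 := by
  apply Subtype.ext
  apply Units.ext
  exact h

theorem tt_sq (l : Nat) : tt l * tt l = 1 := by
  rcases Nat.lt_or_ge l 6 with h | h
  · apply cg_ext
    have := sqAF l h
    rw [← tt_coe l h] at this
    exact this
  · rw [tt_ge l h, one_mul]

theorem prod_coe (u : List Nat) (hu : ∀ l ∈ u, l < 6) :
    ((((u.map tt).prod : CG) : GL Lie.chevG2.Idx F4) : Matrix Lie.chevG2.Idx Lie.chevG2.Idx F4) =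
      ((u.map AF).map mM).prod := by
  induction u with
  | nil => rfl
  | cons l u ih =>
    rw [List.map_cons, List.prod_cons, List.map_cons, List.map_cons, List.prod_cons,
      ← ih (fun l' hl' => hu l' (List.mem_cons_of_mem _ hl')), ← tt_coe l (hu l List.mem_cons_self)]
    rfl

theorem rel_of (u : List Nat) (hu : ∀ l ∈ u, l < 6) (k : Nat)
    (h : allR (fun j => Nat.beq (actP 14 (u.map AF) (bas j) k) (bas j)) 0 14 = true) : ((u.map tt).prod) ^ k = 1 := by
  apply cg_ext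
  have h1 := pow_eq_one_of_actP eG bas14 (u.map AF) (by
    intro m hm
    obtain ⟨l, hl, rfl⟩ := List.mem_map.1 hm
    exact linAF l (hu l hl)) k h
  have h2 := prod_coe u hu
  have h3 : ((((u.map tt).prod ^ k : CG) : GL Lie.chevG2.Idx F4) : Matrix Lie.chevG2.Idx Lie.chevG2.Idx F4) =
    ((((u.map tt).prod : CG) : GL Lie.chevG2.Idx F4) : Matrix Lie.chevG2.Idx Lie.chevG2.Idx F4) ^ k := by
    rw [Subgroup.coe_pow, Units.val_pow_eq_pow_val]
  rw [h3, h2]
  exact h1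

theorem tt_rels : ∀ p ∈ G24t.rels2, ((p.1.map tt).prod) ^ p.2 = 1 := by
  refine List.forall_mem_cons.2 ⟨rel_of [0, 1] (by decide) 5 rel0, ?_⟩
  refine List.forall_mem_cons.2 ⟨rel_of [0, 2] (by decide) 2 rel1, ?_⟩
  refine List.forall_mem_cons.2 ⟨rel_of [0, 3] (by decide) 2 rel2, ?_⟩
  refine List.forall_mem_cons.2 ⟨rel_of [0, 4] (by decide) 2 rel3, ?_⟩
  refine List.forall_mem_cons.2 ⟨rel_of [0, 5] (by decide) 2 rel4, ?_⟩
  refine List.forall_mem_cons.2 ⟨rel_of [1, 2] (by decide) 3 rel5, ?_⟩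
  refine List.forall_mem_cons.2 ⟨rel_of [1, 3] (by decide) 2 rel6, ?_⟩
  refine List.forall_mem_cons.2 ⟨rel_of [1, 4] (by decide) 2 rel7, ?_⟩
  refine List.forall_mem_cons.2 ⟨rel_of [1, 5] (by decide) 3 rel8, ?_⟩
  refine List.forall_mem_cons.2 ⟨rel_of [2, 3] (by decide) 8 rel9, ?_⟩
  refine List.forall_mem_cons.2 ⟨rel_of [2, 4] (by decide) 2 rel10, ?_⟩
  refine List.forall_mem_cons.2 ⟨rel_of [2, 5] (by decide) 2 rel11, ?_⟩
  refine List.forall_mem_cons.2 ⟨rel_of [3, 4] (by decide) 3 rel12, ?_⟩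
  refine List.forall_mem_cons.2 ⟨rel_of [3, 5] (by decide) 2 rel13, ?_⟩
  refine List.forall_mem_cons.2 ⟨rel_of [4, 5] (by decide) 2 rel14, ?_⟩
  refine List.forall_mem_cons.2 ⟨rel_of [0, 2, 3, 2, 3, 2, 3, 2, 3] (by decide) 1 rel15, ?_⟩
  refine List.forall_mem_cons.2 ⟨rel_of [0, 1, 2, 5] (by decide) 5 rel16, ?_⟩
  refine List.forall_mem_cons.2 ⟨rel_of [1, 2, 3, 2, 3, 1, 2, 3, 2, 3, 1, 2, 3, 2, 3, 1, 2, 3, 2, 3, 1, 2, 3, 2, 3, 4] (by decide) 3 rel17, ?_⟩
  intro c hc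
  exact absurd hc List.not_mem_nil

theorem tt_31 : tt 31 = 1 := tt_ge 31 (by decide)

theorem tt0_ne : tt 0 ≠ 1 := by
  intro h
  have h1 := tt_coe 0 (by decide)
  rw [h] at h1
  have h2 : (1 : Matrix Lie.chevG2.Idx Lie.chevG2.Idx F4) = mM A0 := h1
  have h3 := congrFun (congrFun h2 (eG.symm ⟨1, by decide⟩)) (eG.symm ⟨0, by decide⟩)
  rw [Matrix.one_apply, if_neg (by decide)] at h3
  have h4 : mM A0 (eG.symm ⟨1, by decide⟩) (eG.symm ⟨0, by decide⟩) = comp (A0 (4 * 0 + 1)) 1 := by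
    show comp (A0 (4 * (eG (eG.symm ⟨0, by decide⟩) : Nat) + 1)) (eG (eG.symm ⟨1, by decide⟩) : Nat) = _
    rw [Equiv.apply_symm_apply, Equiv.apply_symm_apply]
  rw [h4] at h3
  have h5 : comp (A0 (4 * 0 + 1)) 1 ≠ F4.z := by decide +kernel
  exact h5 h3.symm

noncomputable def φ : G24P.J →* CG :=
  RG.lift 6 G24t.rels2 tt tt_sq tt_ge tt_rels

theorem φ_gen (l : Nat) : φ (G24P.s l) = tt l := RG.lift_gen 6 G24t.rels2 _ _ _ _ l

theorem φ_inj : Function.Injective φ := by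
  apply injective_of_simple G24P.simple _ (G24P.s 0)
  rw [φ_gen]
  exact tt0_ne

theorem card_CG : Nat.card CG = 251596800 := by
  rw [Cfsg.Agent.S1059.result F4.card_F4]
  norm_num

theorem iso : Nonempty (G24P.J ≃* CG) := by
  haveI : Finite CG := Nat.finite_of_card_ne_zero (by rw [card_CG]; decide)
  have hb : Function.Bijective φ := φ_inj.bijective_of_nat_card_le (by rw [card_CG, G24P.card_J])
  exact ⟨MulEquiv.ofBijective φ hb⟩

/-- the subgroup of Suz. -/
theorem iso_suz : Nonempty (wordGroup SuzP.s [[0], [1], [2], [3], [4], [5]] ≃* CG) := by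
  have h0 : SuzP.s 0 ≠ 1 := by
    intro h
    apply SuzP.perm0_ne
    rw [← SuzP.hρ' 0, h, map_one]
  have hsq : ∀ l, SuzP.s l * SuzP.s l = 1 := fun l => by
    have h := SuzP.s_inv l
    exact mul_eq_one_iff_eq_inv.2 h
  have h1 := (SuzP.card_image SuzP.s hsq SuzP.s_31 SuzP.base h0).1
  obtain ⟨f⟩ := iso
  have e := MonoidHom.ofInjective h1
  rw [SuzP.φof_range SuzP.s hsq SuzP.s_31 SuzP.base] at e
  exact ⟨e.symm.trans f⟩

end Cfsg.Agent.H8.G24M
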