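import Cfsg.Agent.H8.TitsInv
import Cfsg.Agent.H8.FixCount

/-!
# Subgroups of order 27, 25 and 39 in the Tits group; no 2-transitive actions
-/

set_option Elab.async false
set_option autoImplicit false
set_option linter.all false
set_option maxRecDepth 100000
set_option maxHeartbeats 1000000

namespace Cfsg.Agent.H8.Tits

open Cfsg.Lie

def LL : List ℕ := [6, 7, 8, 9, 10, 11, 12, 13, 14, 15, 16]

noncomputable def sT (l : ℕ) : TitsGroup := if h : l ∈ LL then ⟨s l, letter_mem l h⟩ else 1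

theorem sT_coe (l : ℕ) (h : l ∈ LL) : ((sT l : TitsGroup) : TG) = s l := by
  unfold sT; rw [dif_pos h]

noncomputable def wT (w : List ℕ) : TitsGroup := (w.map sT).prod

theorem wT_coe (w : List ℕ) (h : ∀ l ∈ w, l ∈ LL) : ((wT w : TitsGroup) : TG) = (w.map s).prod := by
  unfold wT
  induction w with
  | nil => rfl
  | cons a w ih =>
    rw [List.map_cons, List.prod_cons, List.map_cons, List.prod_cons, ← ih (fun l hl => h l (List.mem_cons_of_mem _ hl)),
      ← sT_coe a (h a List.mem_cons_self)]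
    rfl

theorem wT_append (u v : List ℕ) : wT (u ++ v) = wT u * wT v := by
  unfold wT; rw [List.map_append, List.prod_append]

theorem LL_lt : ∀ l ∈ LL, l < 18 := by decide

def bse : List ℕ := [0, 731, 19]

theorem weqT (u v : List ℕ) (hu : ∀ l ∈ u, l ∈ LL) (hv : ∀ l ∈ v, l ∈ LL) (h : ∀ i ∈ bse, trN T' u i = trN T' v i) :
    wT u = wT v := by
  apply Subtype.ext
  rw [wT_coe u hu, wT_coe v hv]
  exact weq u v (fun l hl => LL_lt l (hu l hl)) (fun l hl => LL_lt l (hv l hl)) h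

theorem wT_ne (u v : List ℕ) (hu : ∀ l ∈ u, l ∈ LL) (hv : ∀ l ∈ v, l ∈ LL) (q : ℕ) (hq : q < 1755)
    (h : wT u = wT v) : trN T' u q = trN T' v q := by
  have h1 : ((act ρ ⟨q, hq⟩ ((wT u : TitsGroup) : TG) : Fin 1755) : ℕ)
      = ((act ρ ⟨q, hq⟩ ((wT v : TitsGroup) : TG) : Fin 1755) : ℕ) := by rw [h]
  rw [wT_coe u hu, wT_coe v hv, act_word s tok ρ hρ _ u (fun l hl => LL_lt l (hu l hl)),
    act_word s tok ρ hρ _ v (fun l hl => LL_lt l (hv l hl))] at h1
  exact h1

/-- product of generator words -/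
def WW (gens idx : List (List ℕ)) (i : ℕ) : List ℕ := (idx.getD i []).flatMap fun b => gens.getD b []

theorem subgroup_data (N : ℕ) (hN : 0 < N) (gens idx nxt conj : List (List ℕ)) (a : List ℕ) (q : ℕ) (hq : q < 1755)
    (hL : ∀ g ∈ gens, ∀ l ∈ g, l ∈ LL) (hLc : ∀ g ∈ conj, ∀ l ∈ g, l ∈ LL) (hLa : ∀ l ∈ a, l ∈ LL)
    (h0 : idx.getD 0 [] = []) (hidx : ∀ i < N, ∀ b ∈ idx.getD i [], b < gens.length)
    (hcl : ∀ i < N, ∀ b < gens.length, (nxt.getD i []).getD b 0 < N ∧
      ∀ p ∈ bse, trN T' (WW gens idx i ++ gens.getD b []) p = trN T' (WW gens idx ((nxt.getD i []).getD b 0)) p)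
    (hcj : ∀ i < N, i ≠ 0 → ∀ p ∈ bse, trN T' (a ++ conj.getD i []) p = trN T' (conj.getD i [] ++ WW gens idx i) p)
    (hinj : ∀ i < N, ∀ j < N, trN T' (WW gens idx i) q = trN T' (WW gens idx j) q → i = j) :
    Nat.card (Subgroup.closure {g : TitsGroup | ∃ w ∈ gens, g = wT w}) = N ∧
      ∀ x ∈ Subgroup.closure {g : TitsGroup | ∃ w ∈ gens, g = wT w}, x ≠ 1 → ∃ c : TitsGroup, x = c * wT a * c⁻¹ := by
  have hg : ∀ b < gens.length, gens.getD b [] ∈ gens := by
    intro b hb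
    rw [List.getD_eq_getElem _ _ hb]; exact List.getElem_mem hb
  have hWL : ∀ i < N, ∀ l ∈ WW gens idx i, l ∈ LL := by
    intro i hi l hl
    unfold WW at hl
    rw [List.mem_flatMap] at hl
    obtain ⟨b, hb, hl⟩ := hl
    exact hL _ (hg b (hidx i hi b hb)) l hl
  have hconjL : ∀ i, ∀ l ∈ conj.getD i [], l ∈ LL := by
    intro i l hl
    by_cases h : i < conj.length
    · rw [List.getD_eq_getElem _ _ h] at hl
      exact hLc _ (List.getElem_mem h) l hl
    · rw [List.getD_eq_default _ _ (by omega)] at hl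
      simp at hl
  set S : Set TitsGroup := {g : TitsGroup | ∃ w ∈ gens, g = wT w} with hS
  have hmem : ∀ i < N, wT (WW gens idx i) ∈ Subgroup.closure S := by
    intro i hi
    unfold WW wT
    have : ∀ L : List ℕ, (∀ b ∈ L, b < gens.length) → ((L.flatMap fun b => gens.getD b []).map sT).prod ∈ Subgroup.closure S := by
      intro L
      induction L with
      | nil => intro _; simp
      | cons b L ih =>
        intro h
        rw [List.flatMap_cons, List.map_append, List.prod_append]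
        apply Subgroup.mul_mem _ _ (ih fun b hb => h b (List.mem_cons_of_mem _ hb))
        exact Subgroup.subset_closure ⟨_, hg b (h b List.mem_cons_self), rfl⟩
    exact this _ (hidx i hi)
  have hall : ∀ x ∈ Subgroup.closure S, ∃ i < N, x = wT (WW gens idx i) := by
    have hc := mem_closed {x : TitsGroup | ∃ i < N, x = wT (WW gens idx i)} S (by
      rintro t ⟨w, hw, rfl⟩ m ⟨i, hi, rfl⟩
      obtain ⟨b, hb, rfl⟩ := List.getElem_of_mem hw
      obtain ⟨h1, h2⟩ := hcl i hi b hb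
      rw [List.getD_eq_getElem _ _ hb] at h2
      refine ⟨_, h1, ?_⟩
      rw [← wT_append]
      apply weqT _ _ _ (hWL _ h1) h2
      intro l hl
      rcases List.mem_append.1 hl with hl | hl
      · exact hWL i hi l hl
      · exact hL _ (List.getElem_mem hb) l hl)
    intro x hx
    have := hc x hx 1 ⟨0, hN, by unfold WW; rw [h0]; rfl⟩
    rwa [one_mul] at this
  constructor
  · have e : ((Subgroup.closure S : Subgroup TitsGroup) : Set TitsGroup) = Set.range fun i : Fin N => wT (WW gens idx i) := by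
      ext x
      constructor
      · intro hx
        obtain ⟨i, hi, rfl⟩ := hall x hx
        exact ⟨⟨i, hi⟩, rfl⟩
      · rintro ⟨i, rfl⟩
        exact hmem i i.2
    have hinj' : Function.Injective fun i : Fin N => wT (WW gens idx i) := by
      intro i j h
      apply Fin.ext
      exact hinj i i.2 j j.2 (wT_ne _ _ (hWL i i.2) (hWL j j.2) q hq h)
    have h1 : Nat.card (Subgroup.closure S) = Nat.card (Set.range fun i : Fin N => wT (WW gens idx i)) := by
      change Nat.card ((Subgroup.closure S : Subgroup TitsGroup) : Set TitsGroup) = _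
      rw [e]
    rw [h1, Nat.card_range_of_injective hinj', Nat.card_eq_fintype_card, Fintype.card_fin]
  · intro x hx hx1
    obtain ⟨i, hi, rfl⟩ := hall x hx
    have hi0 : i ≠ 0 := by
      intro h
      apply hx1
      rw [h]; unfold WW; rw [h0]; rfl
    have h2 := weqT (a ++ conj.getD i []) (conj.getD i [] ++ WW gens idx i) (by
      intro l hl
      rcases List.mem_append.1 hl with hl | hl
      · exact hLa l hl
      · exact hconjL i l hl) (by
      intro l hl
      rcases List.mem_append.1 hl with hl | hl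
      · exact hconjL i l hl
      · exact hWL i hi l hl) (hcj i hi hi0)
    rw [wT_append, wT_append] at h2
    refine ⟨(wT (conj.getD i []))⁻¹, ?_⟩
    rw [inv_inv, mul_assoc, h2, inv_mul_cancel_left]

def g3 : List (List ℕ) := [[10, 8, 12, 7, 8, 12, 6, 13, 9, 11], [6, 13, 9, 11, 8, 12, 10, 8, 12, 7]]
def i3 : List (List ℕ) := [[], [0], [1], [0, 0], [0, 1], [1, 0], [1, 1], [0, 0, 1], [0, 1, 0], [0, 1, 1], [1, 0, 0], [1, 0, 1], [1, 1, 0], [0, 0, 1, 0], [0, 0, 1, 1], [0, 1, 0, 0], [0, 1, 0, 1], [0, 1, 1, 0], [1, 0, 1, 1], [1, 1, 0, 1], [0, 0, 1, 0, 0], [0, 0, 1, 0, 1], [0, 0, 1, 1, 0], [0, 1, 0, 1, 1], [0, 1, 1, 0, 1], [0, 0, 1, 0, 1, 1], [0, 0, 1, 1, 0, 1]]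
def n3 : List (List ℕ) := [[1, 2], [3, 4], [5, 6], [0, 7], [8, 9], [10, 11], [12, 0], [13, 14], [15, 16], [17, 1], [2, 17], [14, 18], [16, 19], [20, 21], [22, 3], [4, 22], [6, 23], [21, 24], [23, 5], [24, 20], [7, 12], [9, 25], [11, 26], [25, 8], [26, 10], [18, 13], [19, 15]]
def k3 : List (List ℕ) := [[], [6, 13, 9, 11], [10, 8, 12, 7], [6, 6, 14, 11, 16], [7, 14, 14, 6, 14, 6], [7, 8, 16, 8, 15, 6], [6, 6, 13, 10, 7], [6, 14, 6, 6, 16, 13], [6, 9, 13, 8, 15, 16], [6, 9, 14, 14, 6, 11], [12, 16, 7, 7, 15, 7], [8, 14, 7, 14, 9], [9, 7, 14, 9, 9, 10], [6, 10, 6, 6, 13, 6], [6, 13, 8, 7, 10, 9], [6, 8, 15, 10, 12, 6], [11, 8, 7, 9, 15, 16], [6, 13, 11, 7, 14, 13], [10, 13, 9, 9, 11, 9], [7, 7, 9, 6, 15, 6], [6, 9, 6, 10, 8, 15], [6, 8, 8, 12, 11, 13], [8, 10, 8, 13, 9, 7], [6, 8, 12, 9, 11, 9], [7, 7, 9, 15, 16, 9], [], [10, 14, 7, 14, 11]]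
def g5 : List (List ℕ) := [[14], [7, 16, 14, 7, 14, 6, 15, 16, 6]]
def i5 : List (List ℕ) := [[], [0], [1], [0, 0], [0, 1], [1, 1], [0, 0, 0], [0, 0, 1], [0, 1, 1], [1, 1, 1], [0, 0, 0, 0], [0, 0, 0, 1], [0, 0, 1, 1], [0, 1, 1, 1], [1, 1, 1, 1], [0, 0, 0, 0, 1], [0, 0, 0, 1, 1], [0, 0, 1, 1, 1], [0, 1, 1, 1, 1], [0, 0, 0, 0, 1, 1], [0, 0, 0, 1, 1, 1], [0, 0, 1, 1, 1, 1], [0, 0, 0, 0, 1, 1, 1], [0, 0, 0, 1, 1, 1, 1], [0, 0, 0, 0, 1, 1, 1, 1]]
def n5 : List (List ℕ) := [[1, 2], [3, 4], [4, 5], [6, 7], [7, 8], [8, 9], [10, 11], [11, 12], [12, 13], [13, 14], [0, 15], [15, 16], [16, 17], [17, 18], [18, 0], [2, 19], [19, 20], [20, 21], [21, 1], [5, 22], [22, 23], [23, 3], [9, 24], [24, 6], [14, 10]]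
def k5 : List (List ℕ) := [[], [], [6, 15, 16, 6], [6, 11, 11, 16, 7], [6, 13, 11, 6, 16, 6, 16], [6, 11, 11, 14, 6], [6, 16, 10, 10, 7], [6, 10, 7, 11, 14, 12, 6], [7, 10, 15, 7, 9, 12], [6, 12, 8, 14, 13], [16], [6, 14, 12, 8, 15, 12, 6], [7, 11, 8, 11, 15, 7], [6, 10, 7, 16, 8, 12, 10], [16, 6, 15, 16, 6], [6, 13, 11, 6, 16, 6], [6, 13, 16, 10, 8, 8, 12], [13, 8, 6, 6, 10, 12], [6, 13, 11, 6, 14, 7], [6, 14, 10, 9, 10, 6], [12, 9, 7, 8, 6, 11], [7, 16, 7, 10, 12, 7], [6, 15, 7, 7, 14, 11], [6, 15, 7, 10, 12, 7], [6, 8, 14, 8, 8, 7, 10]]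

noncomputable def P27 : Subgroup TitsGroup := Subgroup.closure {g : TitsGroup | ∃ w ∈ g3, g = wT w}
noncomputable def E25 : Subgroup TitsGroup := Subgroup.closure {g : TitsGroup | ∃ w ∈ g5, g = wT w}

theorem P27_data : Nat.card P27 = 27 ∧ ∀ x ∈ P27, x ≠ 1 → ∃ c : TitsGroup, x = c * wT [8, 12] * c⁻¹ :=
  subgroup_data 27 (by decide) g3 i3 n3 k3 [8, 12] 0 (by decide) (by decide) (by decide) (by decide) (by decide) (by decide)
    (by decide +kernel) (by decide +kernel) (by decide +kernel)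

theorem E25_data : Nat.card E25 = 25 ∧ ∀ x ∈ E25, x ≠ 1 → ∃ c : TitsGroup, x = c * wT [14] * c⁻¹ :=
  subgroup_data 25 (by decide) g5 i5 n5 k5 [14] 1 (by decide) (by decide) (by decide) (by decide) (by decide) (by decide)
    (by decide +kernel) (by decide +kernel) (by decide +kernel)

theorem w_data : (wT [9, 7, 7, 11, 11, 9, 13]) ^ 3 = 1 ∧
    (wT [9, 7, 7, 11, 11, 9, 13])⁻¹ * wT [6] * wT [9, 7, 7, 11, 11, 9, 13] = wT [6] ^ 3 ∧ wT [6] ^ 13 = 1 ∧
    ∃ c : TitsGroup, wT [9, 7, 7, 11, 11, 9, 13] = c * wT [8, 12] * c⁻¹ := by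
  have hp : ∀ (w : List ℕ) (k : ℕ), wT w ^ k = wT ((List.replicate k w).flatten) := by
    intro w k
    induction k with
    | zero => rfl
    | succ k ih => rw [pow_succ', ih, List.replicate_succ, List.flatten_cons, wT_append]
  refine ⟨?_, ?_, ?_, ?_⟩
  · rw [hp, show (1 : TitsGroup) = wT [] from rfl]
    exact weqT _ _ (by decide) (by decide) (by decide +kernel)
  · rw [mul_assoc, inv_mul_eq_iff_eq_mul, ← wT_append, hp, ← wT_append]
    exact weqT _ _ (by decide) (by decide) (by decide +kernel)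
  · rw [hp, show (1 : TitsGroup) = wT [] from rfl]
    exact weqT _ _ (by decide) (by decide) (by decide +kernel)
  · refine ⟨(wT [7, 9, 11, 15, 11, 7, 12])⁻¹, ?_⟩
    have h := weqT ([8, 12] ++ [7, 9, 11, 15, 11, 7, 12]) ([7, 9, 11, 15, 11, 7, 12] ++ [9, 7, 7, 11, 11, 9, 13]) (by decide) (by decide) (by decide +kernel)
    rw [wT_append, wT_append] at h
    rw [inv_inv, mul_assoc, h, inv_mul_cancel_left]

theorem ne_one (w : List ℕ) (hw : ∀ l ∈ w, l ∈ LL) (q : ℕ) (hq : q < 1755) (h : trN T' w q ≠ q) : wT w ≠ 1 := by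
  intro h1
  exact h (wT_ne w [] hw (by simp) q hq h1)

theorem divs : ∀ m < 4300, 27 ≤ m → 17971200 % (m * (m - 1)) = 0 → m = 27 ∨ m = 40 ∨ m = 65 := by
  have h : (List.range 4300).all (fun m => Nat.blt m 27 || !(Nat.beq (17971200 % (m * (m - 1))) 0) || Nat.beq m 27 || Nat.beq m 40 || Nat.beq m 65) = true := by
    decide +kernel
  rw [List.all_eq_true] at h
  intro m hm h27 hd
  have h1 := h m (List.mem_range.2 hm)
  simp only [Bool.or_eq_true, Bool.not_eq_true'] at h1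
  rcases h1 with (((h1 | h1) | h1) | h1) | h1
  · exact absurd (Nat.le_of_ble_eq_true h1) (by omega)
  · rw [hd] at h1; exact absurd h1 (by decide)
  · exact Or.inl (Nat.eq_of_beq_eq_true h1)
  · exact Or.inr (Or.inl (Nat.eq_of_beq_eq_true h1))
  · exact Or.inr (Or.inr (Nat.eq_of_beq_eq_true h1))

instance finT : Finite TitsGroup := inferInstanceAs (Finite (commutator TG))

open FC in
theorem no_two_trans {Ω : Type*} [Fintype Ω] [MulAction TitsGroup Ω] [FaithfulSMul TitsGroup Ω] (hΩ : 3 ≤ Fintype.card Ω)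
    (h : MulAction.IsMultiplyPretransitive TitsGroup Ω 2) : False := by
  set n := Fintype.card Ω with hn
  have hd := two_trans_dvd Ω h (by omega : 2 ≤ Fintype.card Ω)
  have hst := trans_stab (G := TitsGroup) Ω h (by omega : 2 ≤ Fintype.card Ω)
  rw [comm_card] at hd
  rw [comm_card] at hst
  rw [← hn] at hd hst
  set f3 := fx Ω (wT [8, 12]) with hf3
  set f5 := fx Ω (wT [14]) with hf5
  have l3 : f3 < n := fx_lt Ω _ (ne_one _ (by decide) 0 (by decide) (by decide +kernel))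
  have l5 : f5 < n := fx_lt Ω _ (ne_one _ (by decide) 1 (by decide) (by decide +kernel))
  obtain ⟨hP1, hP2⟩ := P27_data
  obtain ⟨hE1, hE2⟩ := E25_data
  have fP : ∀ g ∈ P27, g ≠ 1 → fx Ω g = f3 := by
    intro g hg h1
    obtain ⟨c, rfl⟩ := hP2 g hg h1
    exact fx_conj Ω _ _
  have fE : ∀ g ∈ E25, g ≠ 1 → fx Ω g = f5 := by
    intro g hg h1
    obtain ⟨c, rfl⟩ := hE2 g hg h1
    exact fx_conj Ω _ _
  obtain ⟨k, hk, _⟩ := burnside Ω P27 f3 fP
  obtain ⟨j, hj, hj2⟩ := burnside Ω E25 f5 fE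
  rw [hP1, ← hn] at hk
  rw [hE1, ← hn] at hj
  rw [hE1, ← hn] at hj2
  have h27 : 27 ≤ n := by omega
  have hlt : n < 4300 := by
    by_contra hge
    push Not at hge
    have h1 : 4300 * 4299 ≤ n * (n - 1) := Nat.mul_le_mul hge (by omega)
    have h2 := Nat.le_of_dvd (by norm_num) hd
    omega
  have hcase := divs n hlt h27 (Nat.mod_eq_zero_of_dvd hd)
  have hfree : n = 40 ∨ n = 65 → 5 * j ≤ n := by
    intro hc
    apply hj2
    · intro p
      by_contra hall
      push Not at hall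
      have hle : E25 ≤ MulAction.stabilizer TitsGroup p := by
        intro g hg
        exact hall g hg
      have hdv := Subgroup.card_dvd_of_le hle
      rw [hE1] at hdv
      have hst' := hst p
      obtain ⟨t, ht⟩ := hdv
      rw [ht] at hst'
      rcases hc with hc | hc
      · rw [hc] at hst'; omega
      · rw [hc] at hst'; omega
    · intro d hd1 hd2
      have : d ≤ 25 := Nat.le_of_dvd (by norm_num) hd1
      interval_cases d <;> first | omega | (exfalso; revert hd1; decide)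
  rcases hcase with hc | hc | hc
  · -- degree 27
    have hf0 : f3 = 0 := by omega
    obtain ⟨w1, w2, w3, c, hw⟩ := w_data
    have hfw : fx Ω (wT [9, 7, 7, 11, 11, 9, 13]) = 0 := by
      rw [hw, fx_conj]; exact hf0
    have h3 := three_dvd Ω (wT [6]) (wT [9, 7, 7, 11, 11, 9, 13]) 3 9 w1 w2 (by
      rw [w2, ← pow_mul]
      calc wT [6] = wT [6] ^ (13 * 2 + 1) := by rw [pow_add, pow_mul, w3, one_pow, one_mul, pow_one]
        _ = wT [6] ^ (3 * 9) := by norm_num) hfw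
    haveI : Fact (Nat.Prime 13) := ⟨by norm_num⟩
    have h13 := fx_mod Ω 13 (wT [6]) w3
    have l13 : fx Ω (wT [6]) < n := fx_lt Ω _ (ne_one _ (by decide) 0 (by decide) (by decide +kernel))
    rw [← hn, hc] at h13
    rw [hc] at l13
    unfold Nat.ModEq at h13
    omega
  · have := hfree (Or.inl hc)
    omega
  · have := hfree (Or.inr hc)
    omega

end Cfsg.Agent.H8.Tits
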